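import Mathlib
import Cfsg.Agent.H365.SpFourC
import Cfsg.Agent.H365.Near

/-!
# Index two (copy of the arithmetic of `H365.SpFourD` without its imports)
-/

set_option autoImplicit false

namespace Cfsg.Agent.H72.CS4

open Cfsg.Agent.H902.Art Subgroup Cfsg.Agent.H364 Cfsg.Agent.H365.SpFour

/-- a prime dividing `tt q` with a large order -/
theorem exists_zsig {p f : ℕ} (hp : p.Prime) (hf : 0 < f) :
    ∃ r : ℕ, r.Prime ∧ r ∣ tt (p ^ f) ∧ orderOf (p : ZMod r) = 4 * f ∧ ∀ m, r ∣ p ^ m - 1 ↔ 4 * f ∣ m := by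
  obtain ⟨r, hr, ho⟩ := Cfsg.Agent.Lib.Zsigmondy.exists_prime_orderOf (a := p) (n := 4 * f) hp.two_le (by omega)
    (by omega) (by
      rintro ⟨rfl, h6⟩
      omega)
  have hq2 : 2 ≤ p ^ f := hp.two_le.trans (Nat.le_self_pow hf.ne' p)
  have hrm : ∀ m, r ∣ p ^ m - 1 ↔ 4 * f ∣ m := by
    intro m
    have h1 : 1 ≤ p ^ m := Nat.one_le_pow _ _ hp.pos
    rw [← ho, orderOf_dvd_iff_pow_eq_one, ← Nat.cast_pow, ← Nat.cast_one (R := ZMod r),
      ZMod.natCast_eq_natCast_iff', ← ZMod.natCast_eq_natCast_iff', eq_comm, ZMod.natCast_eq_natCast_iff,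
      Nat.modEq_iff_dvd' h1]
  refine ⟨r, hr, ?_, ho, hrm⟩
  have h1 : r ∣ p ^ (4 * f) - 1 := (hrm _).2 dvd_rfl
  have h2 : p ^ (4 * f) - 1 = ((p ^ f) ^ 2 - 1) * ((p ^ f) ^ 2 + 1) := by
    have h3 : 1 ≤ (p ^ f) ^ 2 := Nat.one_le_pow _ _ (by omega)
    have h4 : p ^ (4 * f) = (p ^ f) ^ 4 := by rw [← pow_mul, mul_comm]
    have h5 : 1 ≤ (p ^ f) ^ 4 := Nat.one_le_pow _ _ (by omega)
    rw [h4]
    zify [h3, h5]; ring
  have h3 : ¬ r ∣ (p ^ f) ^ 2 - 1 := by
    rw [← pow_mul]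
    intro h4
    have := Nat.le_of_dvd (by omega) ((hrm _).1 h4)
    omega
  rw [h2] at h1
  have h5 : r ∣ (p ^ f) ^ 2 + 1 := (hr.dvd_mul.1 h1).resolve_left h3
  have h6 : r ≠ 2 := by
    rintro rfl
    apply h3
    have h7 : 1 ≤ (p ^ f) ^ 2 := Nat.one_le_pow _ _ (by omega)
    omega
  rw [← mul_tt hq2] at h5
  refine (hr.dvd_mul.1 h5).resolve_left fun h7 => h6 ?_
  exact (Nat.prime_dvd_prime_iff_eq hr Nat.prime_two).1 (h7.trans (Nat.gcd_dvd_left 2 _))

/-- index two, same characteristic -/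
theorem same_char {X : Sh} {p f g M' M : ℕ} (hX : Real X p g M') (hY : Real (.C 2) p f M) (h2 : M' * 2 = M)
    {r : ℕ} (hr : r.Prime) (ho : orderOf (p : ZMod r) = 4 * f) (hrM : r ∣ M') : False := by
  have hf := hY.hf
  have hM'0 := hX.M_ne
  have hM0 := hY.M_ne
  have hq3 : 3 ≤ p ^ f := (show 2 ≤ 2 ∧ (2 = 2 → 3 ≤ p ^ f) from hY.ok).2 rfl
  have hP : P p M' * P p 2 = P p M := by rw [← P_mul hM'0 (by norm_num), h2]
  rw [hX.P_self, hY.P_self] at hP
  have hδ : 2 * (f * NN (.C 2) - g * NN X) < f * DM (.C 2) := by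
    show 2 * (f * 4 - g * NN X) < f * 4
    rw [show NN (.C 2) = 4 from rfl, ← pow_mul, ← pow_mul] at hP
    by_cases hp2 : p = 2
    · subst hp2
      have h3 : P 2 2 = 2 := by
        have h := P_pow_self (r := 2) (k := 1) (a := 1) Nat.prime_two (by norm_num)
        simpa using h
      rw [h3, ← pow_succ] at hP
      have h4 : g * NN X + 1 = f * 4 := Nat.pow_right_injective (le_refl 2) hP
      have h5 : 2 ≤ f := by
        by_contra h6
        have h7 : f = 1 := by omega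
        subst h7
        norm_num at hq3
      omega
    · have h3 : P p 2 = 1 := P_eq_one fun h =>
        hp2 ((Nat.prime_dvd_prime_iff_eq hY.hp Nat.prime_two).1 h)
      rw [h3, mul_one] at hP
      have h4 : g * NN X = f * 4 := Nat.pow_right_injective hY.hp.two_le hP
      omega
  have ho' : orderOf (p : ZMod r) = f * DM (.C 2) := by
    rw [ho]; show 4 * f = f * 4; ring
  rcases H365.Near.near hX hY (Dvd.intro _ h2) hr ho' (show 3 ≤ f * 4 by omega) hrM hδ with ⟨rfl, rfl⟩ | h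
  · have h3 : dd (.C 2) (p ^ g) * M' = dd (.C 2) (p ^ g) * M := by rw [hX.eq, hY.eq]
    have h4 := Nat.eq_of_mul_eq_mul_left (Nat.pos_of_ne_zero hX.dd_ne) h3
    omega
  · rcases h with h | h | h | h | h | h | h | h
    · exact absurd h.2.1 (by decide)
    · exact absurd h.2.1 (by decide)
    · obtain ⟨n, -, -, h, -⟩ := h
      cases h
    · exact absurd h.2.1 (by decide)
    · obtain ⟨rfl, -, rfl⟩ := h
      have h3 : M' = (p ^ g) ^ 12 * (((p ^ g) ^ 2 - 1) * ((p ^ g) ^ 6 - 1) * ((p ^ g) ^ 8 + (p ^ g) ^ 4 + 1)) := by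
        have := hX.eq
        rw [show dd .TD4 (p ^ g) = 1 from rfl, one_mul] at this
        exact this
      have h4 := card_mul hY
      have h5 : p ^ (3 * g) = (p ^ g) ^ 3 := by rw [mul_comm, pow_mul]
      have hu : 2 ≤ p ^ g := hX.q_ge
      have h6 : (p ^ (3 * g)) ^ 2 + 1 ≤ 2 * tt (p ^ (3 * g)) := by
        rw [← mul_tt (q := p ^ (3 * g)) (by omega)]
        exact Nat.mul_le_mul_right _ (Nat.le_of_dvd (by norm_num) (Nat.gcd_dvd_left 2 _))
      rw [h5] at h4 h6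
      obtain ⟨T, hT⟩ : ∃ T, T = tt ((p ^ g) ^ 3) := ⟨_, rfl⟩
      rw [← hT] at h4 h6
      obtain ⟨u, hu'⟩ : ∃ u, u = p ^ g := ⟨_, rfl⟩
      rw [← hu'] at h3 h4 h6 hu
      have hu2 : 4 ≤ u ^ 2 := by
        calc 4 = 2 ^ 2 := by norm_num
          _ ≤ u ^ 2 := Nat.pow_le_pow_left hu 2
      have hu6 : 64 ≤ u ^ 6 := by
        calc 64 = 2 ^ 6 := by norm_num
          _ ≤ u ^ 6 := Nat.pow_le_pow_left hu 6
      rw [← pow_mul, ← pow_mul] at h4
      rw [← pow_mul] at h6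
      have hA : (u ^ 6 - 1) * (u ^ 6 + 1) = (u ^ 2 - 1) * (u ^ 8 + u ^ 4 + 1) * (u ^ 2 + 1) := by
        have h7 : 1 ≤ u ^ 2 := by omega
        have h8 : 1 ≤ u ^ 6 := by omega
        zify [h7, h8]; ring
      have h9 : (u ^ 12 * (u ^ 6 - 1)) * (2 * ((u ^ 2 - 1) * (u ^ 8 + u ^ 4 + 1))) =
          (u ^ 12 * (u ^ 6 - 1)) * ((u ^ 6 - 1) * T) := by
        calc (u ^ 12 * (u ^ 6 - 1)) * (2 * ((u ^ 2 - 1) * (u ^ 8 + u ^ 4 + 1))) = M' * 2 := by rw [h3]; ring
          _ = M := h2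
          _ = _ := by rw [h4]; norm_num; ring
      have h10 := Nat.eq_of_mul_eq_mul_left (Nat.mul_pos (by positivity) (by omega)) h9
      have h11 : ((u ^ 2 - 1) * (u ^ 8 + u ^ 4 + 1)) * (u ^ 2 + 1) ≤ ((u ^ 2 - 1) * (u ^ 8 + u ^ 4 + 1)) * 4 := by
        calc ((u ^ 2 - 1) * (u ^ 8 + u ^ 4 + 1)) * (u ^ 2 + 1) = (u ^ 6 - 1) * (u ^ 6 + 1) := hA.symm
          _ ≤ (u ^ 6 - 1) * (2 * T) := Nat.mul_le_mul_left _ (by norm_num at h6; omega)
          _ = 2 * ((u ^ 6 - 1) * T) := by ring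
          _ = 2 * (2 * ((u ^ 2 - 1) * (u ^ 8 + u ^ 4 + 1))) := by rw [h10]
          _ = _ := by ring
      have h12 := Nat.le_of_mul_le_mul_left h11 (Nat.mul_pos (by omega) (by positivity))
      omega
    · exact absurd h.2.1 (by decide)
    · exact absurd h.2.1 (by decide)
    · exact absurd h.2.1 (by decide)

/-- index two, other characteristics -/
theorem other_char {X : Sh} {v p f g M' M : ℕ} (hX : Real X v g M') (hY : Real (.C 2) p f M) (hvp : v ≠ p)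
    (h2 : M' * 2 = M) (h4 : 4 ≤ p ^ f) : False := by
  have hv := hX.hp
  have hM'0 := hX.M_ne
  have hM0 := hY.M_ne
  have hlt := hX.lt_cube
  have hP : P v M' * P v 2 = P v M := by rw [← P_mul hM'0 (by norm_num), h2]
  have hM := card_mul hY
  have hvq : ¬ v ∣ p ^ f := fun h => hvp ((Nat.prime_dvd_prime_iff_eq hv hY.hp).1 (hv.dvd_of_dvd_pow h))
  set q := p ^ f with hq
  have hsq : 1 ≤ q ^ 2 - 1 := by
    have : 4 ^ 2 ≤ q ^ 2 := Nat.pow_le_pow_left h4 2
    omega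
  have htt : tt q ≤ q ^ 2 + 1 := Nat.le_of_dvd (by omega) (tt_dvd (by omega))
  have htt2 : q ^ 2 + 1 ≤ 2 * tt q := by
    rw [← mul_tt (q := q) (by omega)]
    exact Nat.mul_le_mul_right _ (Nat.le_of_dvd (by norm_num) (Nat.gcd_dvd_left 2 _))
  have htt0 : tt q ≠ 0 := by omega
  have hPM : P v M = P v (q ^ 2 - 1) * P v (q ^ 2 - 1) * P v (tt q) := by
    rw [hM, P_mul (by positivity) htt0, P_mul (by positivity) (by positivity), pow_two (q ^ 2 - 1),
      P_mul (by omega) (by omega), P_eq_one (fun h => hvq (hv.dvd_of_dvd_pow h)), one_mul]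
  have hbig : q ^ 4 * (q ^ 2 - 1) ^ 2 * (q ^ 2 + 1) ≤ 2 * M := by
    rw [hM]
    calc q ^ 4 * (q ^ 2 - 1) ^ 2 * (q ^ 2 + 1) ≤ q ^ 4 * (q ^ 2 - 1) ^ 2 * (2 * tt q) := Nat.mul_le_mul_left _ htt2
      _ = _ := by ring
  by_cases hd : v ∣ tt q
  · have hv2 : v ≠ 2 := fun h => two_tt (q := q) (by omega) (h ▸ hd)
    have h5 : P v (q ^ 2 - 1) = 1 := by
      refine P_eq_one fun h => ?_
      have := Nat.dvd_gcd hd h
      rw [cop_sq (by omega)] at this
      exact hv.one_lt.ne' (Nat.dvd_one.1 this)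
    have h6 : P v 2 = 1 := P_eq_one fun h => hv2 ((Nat.prime_dvd_prime_iff_eq hv Nat.prime_two).1 h)
    rw [h6, mul_one, hPM, h5, one_mul, one_mul] at hP
    have h7 : P v M' ≤ q ^ 2 + 1 := by rw [hP]; exact (P_le htt0).trans htt
    have h8 : M' < (q ^ 2 + 1) ^ 3 := hlt.trans_le (Nat.pow_le_pow_left h7 3)
    have h9 : (q ^ 2 + 1) * (q ^ 4 * (q ^ 2 - 1) ^ 2) < (q ^ 2 + 1) * (4 * (q ^ 2 + 1) ^ 2) := by
      calc (q ^ 2 + 1) * (q ^ 4 * (q ^ 2 - 1) ^ 2) = q ^ 4 * (q ^ 2 - 1) ^ 2 * (q ^ 2 + 1) := by ring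
        _ ≤ 2 * M := hbig
        _ = 4 * M' := by omega
        _ < 4 * (q ^ 2 + 1) ^ 3 := by omega
        _ = _ := by ring
    have h10 := Nat.lt_of_mul_lt_mul_left h9
    have h11 : q ^ 2 + 1 ≤ 2 * (q ^ 2 - 1) := by
      have : 4 ^ 2 ≤ q ^ 2 := Nat.pow_le_pow_left h4 2
      omega
    have h12 : (q ^ 2 + 1) ^ 2 ≤ 4 * (q ^ 2 - 1) ^ 2 := by
      calc (q ^ 2 + 1) ^ 2 ≤ (2 * (q ^ 2 - 1)) ^ 2 := Nat.pow_le_pow_left h11 2
        _ = _ := by ring
    have h13 : 256 ≤ q ^ 4 := by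
      calc 256 = 4 ^ 4 := by norm_num
        _ ≤ q ^ 4 := Nat.pow_le_pow_left h4 4
    have h14 : 256 * (q ^ 2 - 1) ^ 2 ≤ q ^ 4 * (q ^ 2 - 1) ^ 2 := Nat.mul_le_mul_right _ h13
    have h15 : 0 < (q ^ 2 - 1) ^ 2 := by positivity
    omega
  · rw [P_eq_one hd, mul_one] at hPM
    have key : 4 * M' < 32 * (q + 1) ^ 6 := by
      by_cases hv2 : v = 2
      · subst hv2
        have h3 : P 2 2 = 2 := by
          have h := P_pow_self (r := 2) (k := 1) (a := 1) Nat.prime_two (by norm_num)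
          simpa using h
        have hodd : ¬ Even q := by rw [even_iff_two_dvd]; exact hvq
        obtain ⟨m, hm⟩ := Nat.not_even_iff_odd.1 hodd
        have h5 : q ^ 2 - 1 = 4 * (m * (m + 1)) := by rw [hm]; exact sq_half m
        have h6 : P 2 (q ^ 2 - 1) ≤ 4 * (m + 1) := by
          rw [h5, P_mul (by norm_num) (Nat.mul_ne_zero (by omega) (by omega)), P_mul (by omega) (by omega)]
          refine Nat.mul_le_mul (P_le (by norm_num)) ?_
          rcases Nat.even_or_odd m with he | ho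
          · have h7 : P 2 (m + 1) = 1 := P_odd_two he.add_one
            rw [h7, mul_one]
            exact (P_le (by omega)).trans (by omega)
          · rw [P_odd_two ho, one_mul]
            exact P_le (by omega)
        have h7 : P 2 (q ^ 2 - 1) ≤ 2 * (q + 1) := by omega
        rw [h3, hPM] at hP
        have h8 : P 2 M' ≤ 2 * (q + 1) ^ 2 := by
          have h9 : P 2 (q ^ 2 - 1) * P 2 (q ^ 2 - 1) ≤ (2 * (q + 1)) * (2 * (q + 1)) := Nat.mul_le_mul h7 h7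
          have h10 : (2 * (q + 1)) * (2 * (q + 1)) = 2 * (2 * (q + 1) ^ 2) := by ring
          omega
        have h9 : M' < (2 * (q + 1) ^ 2) ^ 3 := hlt.trans_le (Nat.pow_le_pow_left h8 3)
        have h10 : (2 * (q + 1) ^ 2) ^ 3 = 8 * (q + 1) ^ 6 := by ring
        omega
      · have h6 : P v 2 = 1 := P_eq_one fun h => hv2 ((Nat.prime_dvd_prime_iff_eq hv Nat.prime_two).1 h)
        rw [h6, mul_one, hPM] at hP
        have h7 : P v (q ^ 2 - 1) ≤ q + 1 := by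
          rw [sq_eq (by omega), P_mul (by omega) (by omega)]
          by_cases h8 : v ∣ q - 1
          · have h9 : P v (q + 1) = 1 := by
              refine P_eq_one fun h => hv2 ?_
              have h10 : v ∣ (q + 1) - (q - 1) := Nat.dvd_sub h h8
              have h11 : (q + 1) - (q - 1) = 2 := by omega
              rw [h11] at h10
              exact (Nat.prime_dvd_prime_iff_eq hv Nat.prime_two).1 h10
            rw [h9, mul_one]
            exact (P_le (by omega)).trans (by omega)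
          · rw [P_eq_one h8, one_mul]
            exact P_le (by omega)
        have h8 : P v M' ≤ (q + 1) * (q + 1) := by rw [hP]; exact Nat.mul_le_mul h7 h7
        have h9 : M' < ((q + 1) * (q + 1)) ^ 3 := hlt.trans_le (Nat.pow_le_pow_left h8 3)
        have h10 : ((q + 1) * (q + 1)) ^ 3 = (q + 1) ^ 6 := by ring
        have h11 : 0 < (q + 1) ^ 6 := by positivity
        omega
    have h5 : (q + 1) ^ 2 * (q ^ 4 * ((q - 1) ^ 2 * (q ^ 2 + 1))) < (q + 1) ^ 2 * (32 * (q + 1) ^ 4) := by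
      calc (q + 1) ^ 2 * (q ^ 4 * ((q - 1) ^ 2 * (q ^ 2 + 1))) = q ^ 4 * (q ^ 2 - 1) ^ 2 * (q ^ 2 + 1) := by
            rw [sq_eq (by omega)]; ring
        _ ≤ 2 * M := hbig
        _ = 4 * M' := by omega
        _ < 32 * (q + 1) ^ 6 := key
        _ = _ := by ring
    have h6 := Nat.lt_of_mul_lt_mul_left h5
    have h7 : 9 * 17 ≤ (q - 1) ^ 2 * (q ^ 2 + 1) := by
      have h8 : 3 ^ 2 ≤ (q - 1) ^ 2 := Nat.pow_le_pow_left (by omega) 2
      have h9 : 4 ^ 2 ≤ q ^ 2 := Nat.pow_le_pow_left h4 2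
      exact Nat.mul_le_mul (by omega) (by omega)
    have h8 : (4 * (q + 1)) ^ 4 ≤ (5 * q) ^ 4 := Nat.pow_le_pow_left (by omega) 4
    have h9 : (4 * (q + 1)) ^ 4 = 256 * (q + 1) ^ 4 := by ring
    have h10 : (5 * q) ^ 4 = 625 * q ^ 4 := by ring
    have h11 : q ^ 4 * (9 * 17) ≤ q ^ 4 * ((q - 1) ^ 2 * (q ^ 2 + 1)) := Nat.mul_le_mul_left _ h7
    have h12 : 0 < q ^ 4 := by positivity
    omega

end Cfsg.Agent.H72.CS4
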