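import Mathlib
import Cfsg.Agent.H364.Iso3

/-!
# Isolated abelian Hall subgroups (the abelian version of `H364.Isol`, after helper364)
-/

set_option autoImplicit false

namespace Cfsg.Agent.H72.CS4

open Subgroup Cfsg.Agent.H364

/-- `T` is an abelian Hall subgroup of order `m` and no element of prime order `r ∣ m` commutes with an element of
prime order `s ∤ m`. -/
structure IsolA (G : Type*) [Group G] (T : Subgroup G) (m : ℕ) : Prop where
  ab : ∀ a ∈ T, ∀ b ∈ T, a * b = b * a
  card : Nat.card T = m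
  cop : m.Coprime (Nat.card G / m)
  edge : ∀ r s : ℕ, r.Prime → s.Prime → r ∣ m → ¬ s ∣ m → NoEdge G r s

namespace IsolA

variable {G : Type*} [Group G] [Finite G] {T : Subgroup G} {m : ℕ}

theorem pos (h : IsolA G T m) : 0 < m := h.card ▸ Nat.card_pos

omit [Finite G] in
theorem dvd (h : IsolA G T m) : m ∣ Nat.card G := h.card ▸ Subgroup.card_subgroup_dvd_card T

omit [Finite G] in
theorem comm (h : IsolA G T m) {a b : G} (ha : a ∈ T) (hb : b ∈ T) : Commute a b := h.ab a ha b hb

omit [Finite G] in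
theorem mul_eq (h : IsolA G T m) : m * (Nat.card G / m) = Nat.card G := Nat.mul_div_cancel' h.dvd

/-- A subgroup containing `T` with only primes dividing `m` is `T`. -/
theorem eq_of_primes (h : IsolA G T m) {C : Subgroup G} (hTC : T ≤ C)
    (hp : ∀ s, s.Prime → s ∣ Nat.card C → s ∣ m) : C = T := by
  have h1 : Nat.card T * T.relIndex C = Nat.card C := by
    rw [← Subgroup.relIndex_bot_left T, ← Subgroup.relIndex_bot_left C]
    exact Subgroup.relIndex_mul_relIndex _ _ _ bot_le hTC
  have h2 : Nat.card C ∣ Nat.card G := Subgroup.card_subgroup_dvd_card C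
  have h3 : T.relIndex C ∣ Nat.card G / m := by
    rw [← h1, h.card, ← h.mul_eq] at h2
    exact Nat.dvd_of_mul_dvd_mul_left h.pos h2
  have h4 : T.relIndex C = 1 := by
    by_contra hne
    obtain ⟨s, hs, hsd⟩ := Nat.exists_prime_and_dvd hne
    have h5 : s ∣ m := hp s hs (hsd.trans (h1 ▸ Dvd.intro_left _ rfl))
    have h6 : s ∣ Nat.card G / m := hsd.trans h3
    have := Nat.dvd_gcd h5 h6
    rw [h.cop] at this
    exact hs.one_lt.ne' (Nat.dvd_one.1 this)
  exact le_antisymm (Subgroup.relIndex_eq_one.1 h4) hTC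

/-- The centralizer of a nontrivial element of `T` is `T`. -/
theorem commute_mem (h : IsolA G T m) {t x : G} (ht : t ∈ T) (ht1 : t ≠ 1) (hx : Commute t x) : x ∈ T := by
  have hTC : T ≤ centralizer ({t} : Set G) := fun a ha => by
    rw [Subgroup.mem_centralizer_singleton_iff]
    exact (h.comm ha ht).eq
  have hC : centralizer ({t} : Set G) = T := by
    refine h.eq_of_primes hTC fun s hs hsd => ?_
    by_contra hsm
    have := Fact.mk hs
    obtain ⟨b, hb⟩ := exists_prime_orderOf_dvd_card' s hsd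
    have hn1 : orderOf t ≠ 1 := fun h => ht1 (orderOf_eq_one_iff.1 h)
    obtain ⟨r, hr, hrd⟩ := Nat.exists_prime_and_dvd hn1
    have hrm : r ∣ m := by
      rw [← h.card]
      refine hrd.trans ?_
      have := orderOf_dvd_natCard (⟨t, ht⟩ : T)
      rwa [← Subgroup.orderOf_coe] at this
    have hbt : Commute t (b : G) := by
      have := Subgroup.mem_centralizer_singleton_iff.1 b.2
      exact (show (b : G) * t = t * b from this).symm
    refine (h.edge r s hr hs hrm hsm).false_of_dvd hr hs ?_ hbt hrd ?_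
    · rintro rfl; exact hsm hrm
    · rw [Subgroup.orderOf_coe, hb]
  rw [← hC, Subgroup.mem_centralizer_singleton_iff]
  exact hx.eq.symm

/-- `N_G(A) ≤ N_G(T)` for a nontrivial subgroup `A` of `T`. -/
theorem normalizer_le (h : IsolA G T m) {A : Subgroup G} (hA : A ≤ T) (hA1 : A ≠ ⊥) :
    normalizer (A : Set G) ≤ normalizer (T : Set G) := by
  obtain ⟨a, ha⟩ := Subgroup.ne_bot_iff_exists_ne_one.1 hA1
  obtain ⟨a, haA, ha1⟩ : ∃ a : G, a ∈ A ∧ a ≠ 1 := ⟨(a : G), a.2, fun h => ha (Subtype.ext h)⟩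
  have key : ∀ g ∈ normalizer (A : Set G), ∀ x ∈ T, g * x * g⁻¹ ∈ T := by
    intro g hg x hx
    have h1 : g * a * g⁻¹ ∈ A := (Subgroup.mem_normalizer_iff.1 hg a).1 haA
    refine h.commute_mem (hA h1) ?_ ?_
    · intro h2
      apply ha1
      have : g⁻¹ * (g * a * g⁻¹) * g = 1 := by rw [h2]; simp
      simpa [mul_assoc] using this
    · have h3 := h.comm (hA haA) hx
      change (g * a * g⁻¹) * (g * x * g⁻¹) = (g * x * g⁻¹) * (g * a * g⁻¹)
      have h4 : a * x = x * a := h3
      calc (g * a * g⁻¹) * (g * x * g⁻¹) = g * (a * x) * g⁻¹ := by group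
        _ = g * (x * a) * g⁻¹ := by rw [h4]
        _ = _ := by group
  intro g hg
  rw [Subgroup.mem_normalizer_iff]
  intro x
  refine ⟨key g hg x, fun hx => ?_⟩
  have := key g⁻¹ (inv_mem hg) _ hx
  simpa [mul_assoc] using this

theorem not_mem_conj (h : IsolA G T m) {g t : G} (ht : t ∈ T) (ht1 : t ≠ 1) (hg : g ∉ T) : g * t * g⁻¹ ≠ t := by
  intro h1
  exact hg (h.commute_mem ht ht1 ((mul_inv_eq_iff_eq_mul.1 h1 : g * t = t * g)).symm)

omit [Finite G] in
theorem not_dvd_div (h : IsolA G T m) {r : ℕ} (hr : r.Prime) (hrm : r ∣ m) : ¬ r ∣ Nat.card G / m := fun h3 => by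
  have := Nat.dvd_gcd hrm h3
  rw [h.cop] at this
  exact hr.one_lt.ne' (Nat.dvd_one.1 this)

theorem div_ne_zero (h : IsolA G T m) : Nat.card G / m ≠ 0 := fun h4 => by
  have := h.mul_eq
  rw [h4, mul_zero] at this
  exact Nat.card_pos.ne this

theorem factorization_eq (h : IsolA G T m) {r : ℕ} (hr : r.Prime) (hrm : r ∣ m) :
    m.factorization r = (Nat.card G).factorization r := by
  rw [← h.mul_eq, Nat.factorization_mul h.pos.ne' h.div_ne_zero, Finsupp.add_apply,
    Nat.factorization_eq_zero_of_not_dvd (h.not_dvd_div hr hrm), add_zero]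

/-- `T` contains a Sylow `r`-subgroup of `G`. -/
theorem exists_sylow (h : IsolA G T m) {r : ℕ} [hr : Fact r.Prime] (hrm : r ∣ m) :
    ∃ R : Sylow r G, (R : Subgroup G) ≤ T := by
  obtain ⟨R⟩ : Nonempty (Sylow r T) := inferInstance
  have h1 : Nat.card ((R : Subgroup T).map T.subtype) = r ^ (Nat.card G).factorization r := by
    rw [Subgroup.card_map_of_injective T.subtype_injective, R.card_eq_multiplicity, h.card]
    rw [h.factorization_eq hr.out hrm]
  exact ⟨Sylow.ofCard _ h1, fun x hx => by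
    obtain ⟨y, _, rfl⟩ := Subgroup.mem_map.1 hx
    exact y.2⟩

/-- `T` contains the Sylow subgroup and normalises it. -/
theorem exists_sylow' (h : IsolA G T m) {r : ℕ} [hr : Fact r.Prime] (hrm : r ∣ m) :
    ∃ R : Sylow r G, (R : Subgroup G) ≤ T ∧ Nat.card R = r ^ m.factorization r ∧
      normalizer ((R : Subgroup G) : Set G) = normalizer (T : Set G) := by
  obtain ⟨R, hRT⟩ := h.exists_sylow hrm
  refine ⟨R, hRT, by rw [R.card_eq_multiplicity, h.factorization_eq hr.out hrm], ?_⟩
  have hR1 : (R : Subgroup G) ≠ ⊥ := R.ne_bot_of_dvd_card (hrm.trans h.dvd)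
  apply le_antisymm (h.normalizer_le hRT hR1)
  have hR : ∀ x ∈ T, (x ∈ (R : Subgroup G) ↔ x ^ Nat.card R = 1) := by
    intro x hx
    constructor
    · intro hxR
      have := pow_card_eq_one' (G := (R : Subgroup G)) (x := ⟨x, hxR⟩)
      exact congrArg Subtype.val this
    · intro hx1
      have hp : IsPGroup r (zpowers x) := by
        obtain ⟨k, hk⟩ := IsPGroup.iff_card.1 R.isPGroup'
        rw [hk] at hx1
        obtain ⟨j, -, hj⟩ := (Nat.dvd_prime_pow hr.out).1 (orderOf_dvd_of_pow_eq_one hx1)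
        exact IsPGroup.of_card (n := j) (by rw [Nat.card_zpowers, hj])
      have h3 : x ∈ normalizer ((R : Subgroup G) : Set G) := by
        rw [Subgroup.mem_normalizer_iff]
        have hc : ∀ y ∈ T, x * y * x⁻¹ = y := fun y hy => mul_inv_eq_iff_eq_mul.2 (h.comm hx hy)
        intro y
        constructor
        · intro hy; rw [hc y (hRT hy)]; exact hy
        · intro hy
          have h4 : x * y * x⁻¹ ∈ T := hRT hy
          have h5 : y ∈ T := by
            have := T.mul_mem (T.mul_mem (T.inv_mem hx) h4) hx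
            simpa [mul_assoc] using this
          rwa [hc y h5] at hy
      have h4 := IsPGroup.inf_normalizer_sylow hp R
      have h5 : x ∈ zpowers x ⊓ normalizer ((R : Subgroup G) : Set G) := ⟨mem_zpowers x, h3⟩
      exact (show x ∈ zpowers x ⊓ (R : Subgroup G) from h4 ▸ h5).2
  intro g hg
  rw [Subgroup.mem_normalizer_iff] at hg ⊢
  intro x
  constructor
  · intro hx
    have h2 := (hg x).1 (hRT hx)
    exact (hR _ h2).2 (by rw [conj_pow, (hR x (hRT hx)).1 hx]; simp)
  · intro hx
    have h2 := (hg x).2 (hRT hx)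
    refine (hR _ h2).2 ?_
    have h3 := (hR _ (hRT hx)).1 hx
    rw [conj_pow] at h3
    have : g⁻¹ * (g * x ^ Nat.card R * g⁻¹) * g = 1 := by rw [h3]; simp
    simpa [mul_assoc] using this

/-- The order of the normaliser: `|N(T)| = m * n` with `n ∣ r ^ v_r(m) - 1` for each prime `r ∣ m`. -/
theorem exists_n (h : IsolA G T m) : ∃ n, Nat.card (normalizer (T : Set G)) = m * n ∧
    ∀ r, r.Prime → r ∣ m → n ∣ r ^ m.factorization r - 1 := by
  have hTN : T ≤ normalizer (T : Set G) := Subgroup.le_normalizer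
  obtain ⟨n, hn⟩ : m ∣ Nat.card (normalizer (T : Set G)) := by
    conv_lhs => rw [← h.card]
    exact Subgroup.card_dvd_of_le hTN
  refine ⟨n, hn, fun r hr hrm => ?_⟩
  have := Fact.mk hr
  have hmpos := h.pos
  obtain ⟨R, hRT, hRc, hRN⟩ := h.exists_sylow' hrm
  let Y : Type _ := {t : (R : Subgroup G) // t ≠ 1}
  have hY : Nat.card Y = r ^ m.factorization r - 1 := by
    have := Fintype.ofFinite (R : Subgroup G)
    classical
    rw [Nat.card_eq_fintype_card, Fintype.card_subtype_compl, Fintype.card_subtype_eq, ← Nat.card_eq_fintype_card]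
    have h0 : Nat.card (R : Subgroup G) = r ^ m.factorization r := hRc
    rw [h0]
  have hN : ∀ (x : normalizer (T : Set G)) (t : (R : Subgroup G)), (x : G) * t * (x : G)⁻¹ ∈ (R : Subgroup G) :=
    fun x t => by
      have hx : (x : G) ∈ normalizer ((R : Subgroup G) : Set G) := by rw [hRN]; exact x.2
      exact (Subgroup.mem_normalizer_iff.1 hx t).1 t.2
  have hact1 : ∀ (x : normalizer (T : Set G)) (t : Y),
      (⟨(x : G) * (t.1 : G) * (x : G)⁻¹, hN x t.1⟩ : (R : Subgroup G)) ≠ 1 := by
    intro x t h1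
    apply t.2
    apply Subtype.ext
    have h2 : (x : G) * (t.1 : G) * (x : G)⁻¹ = 1 := congrArg Subtype.val h1
    have : (x : G)⁻¹ * ((x : G) * (t.1 : G) * (x : G)⁻¹) * x = 1 := by rw [h2]; simp
    simpa [mul_assoc] using this
  let act : MulAction (normalizer (T : Set G)) Y :=
    { smul := fun x t => ⟨⟨(x : G) * (t.1 : G) * (x : G)⁻¹, hN x t.1⟩, hact1 x t⟩
      one_smul := fun t => Subtype.ext (Subtype.ext (by
        change ((1 : normalizer (T : Set G)) : G) * (t.1 : G) * ((1 : normalizer (T : Set G)) : G)⁻¹ = t.1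
        simp))
      mul_smul := fun x y t => Subtype.ext (Subtype.ext (by
        change ((x * y : normalizer (T : Set G)) : G) * (t.1 : G) * ((x * y : normalizer (T : Set G)) : G)⁻¹ =
          (x : G) * ((y : G) * (t.1 : G) * (y : G)⁻¹) * (x : G)⁻¹
        simp [mul_assoc])) }
  have hstab : ∀ t : Y, Nat.card (MulAction.stabilizer (normalizer (T : Set G)) t) = m := by
    intro t
    have h1 : MulAction.stabilizer (normalizer (T : Set G)) t = T.subgroupOf (normalizer (T : Set G)) := by
      ext x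
      rw [MulAction.mem_stabilizer_iff, Subgroup.mem_subgroupOf]
      have ht1 : ((t.1 : (R : Subgroup G)) : G) ≠ 1 := fun h => t.2 (Subtype.ext h)
      constructor
      · intro hx
        have h2 : (x : G) * (t.1 : G) * (x : G)⁻¹ = t.1 := congrArg (fun y : Y => ((y.1 : (R : Subgroup G)) : G)) hx
        by_contra h3
        exact h.not_mem_conj (hRT t.1.2) ht1 h3 h2
      · intro hx
        apply Subtype.ext
        apply Subtype.ext
        change (x : G) * (t.1 : G) * (x : G)⁻¹ = t.1
        exact mul_inv_eq_iff_eq_mul.2 (h.comm hx (hRT t.1.2))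
    rw [h1, Nat.card_congr (Subgroup.subgroupOfEquivOfLe hTN).toEquiv, h.card]
  obtain ⟨k, hk⟩ := Cfsg.Agent.Lib.ActCount.exists_card_mul (H := normalizer (T : Set G)) (Y := Y) m hstab
  rw [hn, hY] at hk
  have hk2 : m * (r ^ m.factorization r - 1) = m * (k * n) := by rw [hk]; ring
  have hk3 : r ^ m.factorization r - 1 = k * n := Nat.eq_of_mul_eq_mul_left hmpos hk2
  exact Dvd.intro_left _ hk3.symm

/-- A Sylow subgroup which meets a given Sylow subgroup contained in `T` nontrivially is equal to it. -/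
theorem sylow_eq (h : IsolA G T m) {r : ℕ} [hr : Fact r.Prime] {R P : Sylow r G} (hRT : (R : Subgroup G) ≤ T)
    {x : G} (hxR : x ∈ (R : Subgroup G)) (hxP : x ∈ (P : Subgroup G)) (hx : x ≠ 1) : P = R := by
  obtain ⟨g, hg⟩ := MulAction.exists_smul_eq G R P
  have hPab : ∀ a ∈ (P : Subgroup G), ∀ b ∈ (P : Subgroup G), a * b = b * a := by
    intro a ha b hb
    rw [← hg] at ha hb
    obtain ⟨a', ha', rfl⟩ := ha
    obtain ⟨b', hb', rfl⟩ := hb
    have h1 : a' * b' = b' * a' := h.ab a' (hRT ha') b' (hRT hb')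
    have h2 := congrArg (fun z => g * z * g⁻¹) h1
    simp only [MulDistribMulAction.toMonoidEnd_apply, MulDistribMulAction.toMonoidHom_apply, MulAut.smul_def,
      MulAut.conj_apply]
    calc g * a' * g⁻¹ * (g * b' * g⁻¹) = g * (a' * b') * g⁻¹ := by group
      _ = g * (b' * a') * g⁻¹ := h2
      _ = _ := by group
  have hPT : (P : Subgroup G) ≤ T := fun y hy => h.commute_mem (hRT hxR) hx (hPab x hxP y hy)
  have hle : (P : Subgroup G) ≤ R := by
    intro y hy
    have hyp : IsPGroup r (zpowers y) := by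
      obtain ⟨k, hk⟩ := IsPGroup.iff_card.1 P.isPGroup'
      have h1 : orderOf y ∣ r ^ k := by
        rw [← hk]
        have := orderOf_dvd_natCard (⟨y, hy⟩ : (P : Subgroup G))
        rwa [Subgroup.orderOf_mk] at this
      obtain ⟨j, -, hj⟩ := (Nat.dvd_prime_pow hr.out).1 h1
      exact IsPGroup.of_card (n := j) (by rw [Nat.card_zpowers, hj])
    have h3 : y ∈ normalizer ((R : Subgroup G) : Set G) := by
      have hc : ∀ z ∈ T, y * z * y⁻¹ = z := fun z hz => mul_inv_eq_iff_eq_mul.2 (h.comm (hPT hy) hz)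
      rw [Subgroup.mem_normalizer_iff]
      intro z
      constructor
      · intro hz; rw [hc z (hRT hz)]; exact hz
      · intro hz
        have h4 : y * z * y⁻¹ ∈ T := hRT hz
        have h5 : z ∈ T := by
          have := T.mul_mem (T.mul_mem (T.inv_mem (hPT hy)) h4) (hPT hy)
          simpa [mul_assoc] using this
        rwa [hc z h5] at hz
    have h4 := IsPGroup.inf_normalizer_sylow hyp R
    have h5 : y ∈ zpowers y ⊓ normalizer ((R : Subgroup G) : Set G) := ⟨mem_zpowers y, h3⟩
    exact (show y ∈ zpowers y ⊓ (R : Subgroup G) from h4 ▸ h5).2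
  exact (Sylow.ext (P.3 R.isPGroup' hle)).symm

/-- The congruence `|G| / m ≡ n mod r ^ v_r(m)`. -/
theorem modEq (h : IsolA G T m) {n : ℕ} (hn : Nat.card (normalizer (T : Set G)) = m * n) {r : ℕ} (hr : r.Prime)
    (hrm : r ∣ m) : Nat.card G / m ≡ n [MOD r ^ m.factorization r] := by
  have := Fact.mk hr
  obtain ⟨R, hRT, hRc, hRN⟩ := h.exists_sylow' hrm
  let Y : Type _ := {P : Sylow r G // P ≠ R}
  have hfix : ∀ x : (R : Subgroup G), (x : G) • R = R := fun x => by
    exact Sylow.smul_eq_iff_mem_normalizer.2 (Subgroup.le_normalizer x.2)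
  have hne : ∀ (x : (R : Subgroup G)) (P : Y), (x : G) • P.1 ≠ R := by
    intro x P h1
    apply P.2
    exact (smul_left_cancel_iff (x : G)).1 (h1.trans (hfix x).symm)
  let act : MulAction (R : Subgroup G) Y :=
    { smul := fun x P => ⟨(x : G) • P.1, hne x P⟩
      one_smul := fun P => Subtype.ext (by
        change ((1 : (R : Subgroup G)) : G) • P.1 = P.1
        rw [Subgroup.coe_one, one_smul])
      mul_smul := fun x y P => Subtype.ext (by
        change ((x * y : (R : Subgroup G)) : G) • P.1 = (x : G) • ((y : G) • P.1)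
        rw [Subgroup.coe_mul, mul_smul]) }
  have hstab : ∀ P : Y, Nat.card (MulAction.stabilizer (R : Subgroup G) P) = 1 := by
    intro P
    rw [Subgroup.card_eq_one, eq_bot_iff]
    intro x hx
    rw [MulAction.mem_stabilizer_iff] at hx
    have h1 : (x : G) • P.1 = P.1 := congrArg Subtype.val hx
    have h2 := Sylow.smul_eq_iff_mem_normalizer.1 h1
    have hxp : IsPGroup r (zpowers (x : G)) := by
      obtain ⟨k, hk⟩ := IsPGroup.iff_card.1 R.isPGroup'
      have h1 : orderOf (x : G) ∣ r ^ k := by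
        rw [← hk, Subgroup.orderOf_coe]
        exact orderOf_dvd_natCard x
      obtain ⟨j, -, hj⟩ := (Nat.dvd_prime_pow hr).1 h1
      exact IsPGroup.of_card (n := j) (by rw [Nat.card_zpowers, hj])
    have h4 := IsPGroup.inf_normalizer_sylow hxp P.1
    have h5 : (x : G) ∈ zpowers (x : G) ⊓ normalizer ((P.1 : Subgroup G) : Set G) := ⟨mem_zpowers _, h2⟩
    have h6 : (x : G) ∈ (P.1 : Subgroup G) := (show (x : G) ∈ zpowers (x : G) ⊓ (P.1 : Subgroup G) from h4 ▸ h5).2
    by_contra h7
    refine P.2 (h.sylow_eq hRT x.2 h6 fun h8 => h7 ?_)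
    rw [Subgroup.mem_bot]
    exact Subtype.ext h8
  obtain ⟨k, hk⟩ := Cfsg.Agent.Lib.ActCount.exists_card_mul (H := (R : Subgroup G)) (Y := Y) 1 hstab
  have hY : Nat.card (Sylow r G) = Nat.card Y + 1 := by
    have := Fintype.ofFinite (Sylow r G)
    classical
    rw [Nat.card_eq_fintype_card, Nat.card_eq_fintype_card, Fintype.card_subtype_compl, Fintype.card_subtype_eq]
    have : 0 < Fintype.card (Sylow r G) := Fintype.card_pos
    omega
  have h0 : Nat.card (R : Subgroup G) = r ^ m.factorization r := hRc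
  rw [one_mul, h0] at hk
  have h2 : (normalizer (T : Set G)).index = k * r ^ m.factorization r + 1 := by
    rw [← hRN, ← hk, ← hY]
    exact (R.card_eq_index_normalizer).symm
  have h3 := Subgroup.card_mul_index (normalizer (T : Set G))
  rw [hn, mul_assoc] at h3
  have h4 : Nat.card G / m = n * (normalizer (T : Set G)).index := by
    rw [← h3]; exact Nat.mul_div_cancel_left _ h.pos
  rw [h4, h2]
  have h5 : k * r ^ m.factorization r + 1 ≡ 1 [MOD r ^ m.factorization r] := by
    have := (Nat.modEq_zero_iff_dvd.2 (Dvd.intro_left k rfl : r ^ m.factorization r ∣ k * r ^ m.factorization r)).add_right 1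
    simpa using this
  have h6 := h5.mul_left n
  rwa [mul_one] at h6

end IsolA

end Cfsg.Agent.H72.CS4
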