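import Mathlib
import Cfsg.Agent.H365.SpFourC
import Cfsg.Agent.H992.TC.SporB
import Cfsg.Agent.H992.TC.Core2

/-!
# `PSp₄(q)`: alternating and sporadic groups have other orders
-/

set_option autoImplicit false

namespace Cfsg.Agent.H72.CS4

open Cfsg.Agent.H902 Cfsg.Agent.H902.Art Cfsg.Agent.OrdDiv Cfsg.Agent.H365.SpFour Cfsg.Agent.H992.TC

def F1 (q : ℕ) : ℕ := q ^ 4 * ((q ^ 2 - 1) ^ 2 * (q ^ 2 + 1))

def F2 (q : ℕ) : ℕ := (q ^ 2 - 1) ^ 2 * (q ^ 2 + 1)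

theorem mono_F2 : Monotone F2 := fun _ _ h => Nat.mul_le_mul (Nat.pow_le_pow_left (sub_mono 2 h) 2)
  (Nat.add_le_add_right (Nat.pow_le_pow_left h 2) 1)

theorem mono_F1 : Monotone F1 := fun _ _ h => Nat.mul_le_mul (Nat.pow_le_pow_left h 4) (mono_F2 h)

theorem chk_F1 : spor.all (fun x => brkChk F1 10000000 (x.2 * 2) && brkChk F1 10000000 (x.2 * 4)) = true := by
  decide +kernel

theorem chk_F2 : spor.all (fun x => brkChk F2 10000000000 x.2 && brkChk F2 10000000000 (x.2 * 2) &&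
    brkChk F2 10000000000 (x.2 * 4)) = true := by
  decide +kernel

theorem mul_M {p f M : ℕ} (h : Art.Real (.C 2) p f M) : Nat.gcd 2 (p ^ f - 1) * M = F1 (p ^ f) := by
  rw [card_mul h]
  have hq := h.q_ge
  calc Nat.gcd 2 (p ^ f - 1) * ((p ^ f) ^ 4 * ((p ^ f) ^ 2 - 1) ^ 2 * tt (p ^ f))
      = (p ^ f) ^ 4 * ((p ^ f) ^ 2 - 1) ^ 2 * (Nat.gcd 2 (p ^ f - 1) * tt (p ^ f)) := by ring
    _ = _ := by rw [mul_tt hq, F1]; ring

theorem gcd_cases (q : ℕ) : Nat.gcd 2 (q - 1) = 1 ∨ Nat.gcd 2 (q - 1) = 2 := by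
  have h1 := Nat.gcd_dvd_left 2 (q - 1)
  exact (Nat.dvd_prime Nat.prime_two).1 h1

/-- **sporadic groups** -/
theorem spor_false {p f M : ℕ} (h : Art.Real (.C 2) p f M) {x : Grp × ℕ} (hx : x ∈ spor) {i k : ℕ}
    (hi : i = 1 ∨ i = 2) (hk : k = 1 ∨ k = (p ^ f) ^ 4) (hik : ¬ (i = 1 ∧ k = 1)) (e : k * (x.2 * i) = M) : False := by
  have hq := h.q_ge
  have h1 := mul_M h
  have h2 := List.all_eq_true.1 chk_F1 x hx
  have h3 := List.all_eq_true.1 chk_F2 x hx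
  rw [Bool.and_eq_true] at h2 h3
  rw [Bool.and_eq_true] at h3
  rw [← e] at h1
  rcases hk with rfl | rfl
  · have hi2 : i = 2 := by tauto
    subst hi2
    rcases gcd_cases (p ^ f) with hg | hg <;> rw [hg] at h1
    · refine brkChk_spec mono_F1 h2.1 (p ^ f) ?_
      rw [← h1]; ring
    · refine brkChk_spec mono_F1 h2.2 (p ^ f) ?_
      rw [← h1]; ring
  · have h4 : (p ^ f) ^ 4 * (Nat.gcd 2 (p ^ f - 1) * (x.2 * i)) = (p ^ f) ^ 4 * F2 (p ^ f) := by
      calc (p ^ f) ^ 4 * (Nat.gcd 2 (p ^ f - 1) * (x.2 * i)) = Nat.gcd 2 (p ^ f - 1) * ((p ^ f) ^ 4 * (x.2 * i)) := by ring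
        _ = F1 (p ^ f) := h1
        _ = _ := rfl
    have h5 := Nat.eq_of_mul_eq_mul_left (pow_pos (by omega) 4) h4
    rcases gcd_cases (p ^ f) with hg | hg <;> rw [hg] at h5 <;> rcases hi with rfl | rfl
    · exact brkChk_spec mono_F2 h3.1.1 (p ^ f) (by rw [← h5]; ring)
    · exact brkChk_spec mono_F2 h3.1.2 (p ^ f) (by rw [← h5]; ring)
    · exact brkChk_spec mono_F2 h3.1.2 (p ^ f) (by rw [← h5]; ring)
    · exact brkChk_spec mono_F2 h3.2 (p ^ f) (by rw [← h5]; ring)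

/-- a test -/
def tst (x A B i : ℕ) : Bool := (!(Nat.beq x A) || Nat.beq i 1) && !(Nat.beq x B)

theorem tst_spec {x A B i : ℕ} (h : tst x A B i = true) : (x = A → i = 1) ∧ x ≠ B := by
  unfold tst at h
  rw [Bool.and_eq_true, Bool.or_eq_true] at h
  constructor
  · intro h1
    rcases h.1 with h2 | h2
    · exfalso
      have h3 : Nat.beq x A = true := by rw [Nat.beq_eq]; exact h1
      rw [h3] at h2
      exact absurd h2 (by decide)
    · rwa [Nat.beq_eq] at h2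
  · intro h1
    have h3 : Nat.beq x B = true := by rw [Nat.beq_eq]; exact h1
    have h2 := h.2
    rw [h3] at h2
    exact absurd h2 (by decide)

/-- the check for alternating groups -/
def altChk : Bool :=
  (List.range' 5 15).all fun n => (List.range' 4 22).all fun q => (List.range' 1 2).all fun i =>
    tst (n.factorial * i) (2 * (q ^ 4 * (q ^ 2 - 1) ^ 2 * tt q)) (2 * ((q ^ 2 - 1) ^ 2 * tt q)) i

theorem altChk_true : altChk = true := by decide +kernel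

theorem altChk_spec {n q i : ℕ} (hn : 5 ≤ n) (hn' : n ≤ 19) (hq : 4 ≤ q) (hq' : q ≤ 25) (hi : 1 ≤ i) (hi' : i ≤ 2) :
    (n.factorial * i = 2 * (q ^ 4 * (q ^ 2 - 1) ^ 2 * tt q) → i = 1) ∧
      n.factorial * i ≠ 2 * ((q ^ 2 - 1) ^ 2 * tt q) := by
  have hc := altChk_true
  unfold altChk at hc
  have hc1 := List.all_eq_true.1 hc n (List.mem_range'_1.2 ⟨hn, by omega⟩)
  have hc2 := List.all_eq_true.1 hc1 q (List.mem_range'_1.2 ⟨hq, by omega⟩)
  exact tst_spec (List.all_eq_true.1 hc2 i (List.mem_range'_1.2 ⟨hi, by omega⟩))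

theorem two_F (q : ℕ) (ho : Odd q) (hq : 3 ≤ q) : P 2 (q ^ 2 - 1) ≤ 2 * (q + 1) := by
  obtain ⟨m, hm⟩ := ho
  have h5 : q ^ 2 - 1 = 4 * (m * (m + 1)) := by rw [hm]; exact sq_half m
  have h6 : P 2 (q ^ 2 - 1) ≤ 4 * (m + 1) := by
    rw [h5, P_mul (by norm_num) (Nat.mul_ne_zero (by omega) (by omega)), P_mul (by omega) (by omega)]
    refine Nat.mul_le_mul (P_le (by norm_num)) ?_
    rcases Nat.even_or_odd m with he | ho
    · have h7 : P 2 (m + 1) = 1 := P_odd_two he.add_one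
      rw [h7, mul_one]
      exact (P_le (by omega)).trans (by omega)
    · rw [P_odd_two ho, one_mul]
      exact P_le (by omega)
  omega

theorem three_F (q : ℕ) (hq : 3 ≤ q) : P 3 (q ^ 2 - 1) ≤ q + 1 := by
  rw [sq_eq (by omega), P_mul (by omega) (by omega)]
  by_cases h8 : 3 ∣ q - 1
  · have h9 : P 3 (q + 1) = 1 := P_eq_one fun h => by omega
    rw [h9, mul_one]
    exact (P_le (by omega)).trans (by omega)
  · rw [P_eq_one h8, one_mul]
    exact P_le (by omega)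

theorem num_eq (q : ℕ) (hq : 2 ≤ q) : num (.C 2) q = (q ^ 2 - 1) * (q ^ 2 - 1) * (q ^ 2 + 1) := by
  have h4 : num (.C 2) q = (q ^ 2 - 1) * (q ^ 4 - 1) := by simp [num, Finset.prod_range_succ]
  have h6 : 1 ≤ q ^ 2 := Nat.one_le_pow _ _ (by omega)
  have h7 : 1 ≤ q ^ 4 := Nat.one_le_pow _ _ (by omega)
  have h5 : q ^ 4 - 1 = (q ^ 2 - 1) * (q ^ 2 + 1) := by
    zify [h6, h7]; ring
  rw [h4, h5]; ring

theorem not_three (q : ℕ) : ¬ 3 ∣ q ^ 2 + 1 := by
  intro h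
  have h1 : q % 3 = 0 ∨ q % 3 = 1 ∨ q % 3 = 2 := by omega
  have h2 : (q ^ 2 + 1) % 3 = 0 := Nat.mod_eq_zero_of_dvd h
  rcases h1 with h1 | h1 | h1 <;> simp [Nat.pow_mod, Nat.add_mod, h1] at h2

theorem tt_coprime_six {q : ℕ} (hq : 2 ≤ q) : (tt q).Coprime 6 := by
  have h1 : (tt q).Coprime 2 := ((Nat.Prime.coprime_iff_not_dvd Nat.prime_two).2 (two_tt hq)).symm
  have h2 : (tt q).Coprime 3 := ((Nat.Prime.coprime_iff_not_dvd Nat.prime_three).2 fun h =>
    not_three q (h.trans (tt_dvd hq))).symm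
  exact Nat.Coprime.mul_right h1 h2

/-- **alternating groups** -/
theorem alt_false {p f M : ℕ} (h : Art.Real (.C 2) p f M) (h4 : 4 ≤ p ^ f) {n i k : ℕ} (hn : 5 ≤ n)
    (hi : i = 1 ∨ i = 2) (hk : k = 1 ∨ k = (p ^ f) ^ 4) (hik : ¬ (i = 1 ∧ k = 1))
    (e : k * (n.factorial * i) = 2 * M) (iso : ∀ r, r.Prime → r ∣ tt (p ^ f) → n ≤ r + 2) : False := by
  have hq : 2 ≤ p ^ f := by omega
  obtain ⟨a, ha, hak⟩ : ∃ a, k = p ^ a ∧ (a = 0 ∨ a = f * 4) := by
    rcases hk with rfl | rfl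
    · exact ⟨0, by simp, Or.inl rfl⟩
    · exact ⟨f * 4, by rw [pow_mul], Or.inr rfl⟩
  have hM := card_mul h
  have hptt : ¬ p ∣ tt (p ^ f) := fun h0 => by
    have h1 : p ∣ p ^ f := dvd_pow_self p (by have := h.hf; omega)
    have := Nat.dvd_gcd h0 h1
    rw [cop_q hq] at this
    exact h.hp.one_lt.ne' (Nat.dvd_one.1 this)
  obtain ⟨h1, h2, h3, h5⟩ := alt_core (a := a) h (tt_coprime_six hq) (hM ▸ Dvd.intro_left _ rfl) hptt
    (c := i) (by rcases hi with rfl | rfl <;> norm_num) hn (by rw [← e, ha]; ring) iso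
  obtain ⟨q, hqd⟩ : ∃ q, q = p ^ f := ⟨_, rfl⟩
  rw [← hqd] at h1 h2 h3 h5 h4 hq hM hk iso
  rw [num_eq q hq] at h3 h5
  have hsq0 : q ^ 2 - 1 ≠ 0 := by
    have : 4 ^ 2 ≤ q ^ 2 := Nat.pow_le_pow_left h4 2
    omega
  have hbound : n ≤ 19 ∧ q ≤ 25 := by
    rcases Nat.even_or_odd q with he | ho
    · have hp2 : p = 2 := by
        have h6 : 2 ∣ p ^ f := by rw [← hqd]; exact he.two_dvd
        exact ((Nat.prime_dvd_prime_iff_eq Nat.prime_two h.hp).1 (Nat.prime_two.dvd_of_dvd_pow h6)).symm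
      have h6 := h5 hp2
      rw [tt_even he hq] at h1
      have h7 : P 3 ((q ^ 2 - 1) * (q ^ 2 - 1) * (q ^ 2 + 1)) ≤ (q + 1) * (q + 1) := by
        rw [P_mul (Nat.mul_ne_zero hsq0 hsq0) (by omega), P_mul hsq0 hsq0, P_eq_one (not_three q), mul_one]
        exact Nat.mul_le_mul (three_F q (by omega)) (three_F q (by omega))
      have h8 : (q + 1) * (q + 1) ≤ 2 * n ^ 2 := by
        have h9 : (q + 1) * (q + 1) ≤ 2 * (q ^ 2 + 1) := by nlinarith [sq_nonneg ((q : ℤ) - 1)]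
        have h10 : n * (n - 2) ≤ n ^ 2 := by rw [pow_two]; exact Nat.mul_le_mul_left _ (Nat.sub_le _ _)
        omega
      have h9 : 3 ^ n ≤ 36 * n ^ 6 := by
        calc 3 ^ n ≤ 9 * n ^ 2 * P 3 ((q ^ 2 - 1) * (q ^ 2 - 1) * (q ^ 2 + 1)) ^ 2 := h6
          _ ≤ 9 * n ^ 2 * (2 * n ^ 2) ^ 2 := Nat.mul_le_mul_left _ (Nat.pow_le_pow_left (h7.trans h8) 2)
          _ = _ := by ring
      have hn19 : n ≤ 19 := by
        by_contra hcon
        have := growth (C := 36) (k := 6) (b := 3) (n0 := 20) (by norm_num) (by norm_num) (by norm_num)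
          (n := n) (by omega)
        omega
      refine ⟨hn19, ?_⟩
      have h10 : n * (n - 2) ≤ 19 * 17 := Nat.mul_le_mul hn19 (by omega)
      nlinarith
    · have hp2 : p ≠ 2 := by
        rintro rfl
        have h6 : Even q := by rw [hqd]; exact (even_two).pow_of_ne_zero (by have := h.hf; omega)
        exact (Nat.not_even_iff_odd.2 ho) h6
      have h6 := h3 hp2
      have h10 := tt_odd ho hq
      have h7 : P 2 ((q ^ 2 - 1) * (q ^ 2 - 1) * (q ^ 2 + 1)) ≤ (2 * (q + 1)) * (2 * (q + 1)) * 2 := by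
        rw [P_mul (Nat.mul_ne_zero hsq0 hsq0) (by omega), P_mul hsq0 hsq0]
        refine Nat.mul_le_mul (Nat.mul_le_mul (two_F q ho (by omega)) (two_F q ho (by omega))) ?_
        rw [← h10, P_mul (by norm_num) (by have := tt_ge (q := q) (by omega); omega), P_odd_two (odd_tt hq), mul_one]
        exact P_le (by norm_num)
      have h8 : (q + 1) * (q + 1) ≤ 4 * n ^ 2 := by
        have h9 : (q + 1) * (q + 1) ≤ 2 * (q ^ 2 + 1) := by nlinarith [sq_nonneg ((q : ℤ) - 1)]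
        have h11 : n * (n - 2) ≤ n ^ 2 := by rw [pow_two]; exact Nat.mul_le_mul_left _ (Nat.sub_le _ _)
        omega
      have h9 : 2 ^ n ≤ 128 * n ^ 3 := by
        calc 2 ^ n ≤ 4 * n * P 2 ((q ^ 2 - 1) * (q ^ 2 - 1) * (q ^ 2 + 1)) := h6
          _ ≤ 4 * n * ((2 * (q + 1)) * (2 * (q + 1)) * 2) := Nat.mul_le_mul_left _ h7
          _ = 32 * n * ((q + 1) * (q + 1)) := by ring
          _ ≤ 32 * n * (4 * n ^ 2) := Nat.mul_le_mul_left _ h8
          _ = _ := by ring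
      have hn19 : n ≤ 19 := by
        by_contra hcon
        have := growth (C := 128) (k := 3) (b := 2) (n0 := 20) (by norm_num) (by norm_num) (by norm_num)
          (n := n) (by omega)
        omega
      refine ⟨hn19, ?_⟩
      have h10 : n * (n - 2) ≤ 19 * 17 := Nat.mul_le_mul hn19 (by omega)
      nlinarith
  obtain ⟨hc4, hc5⟩ := altChk_spec (i := i) hn hbound.1 h4 hbound.2 (by omega) (by omega)
  rcases hk with rfl | rfl
  · have hi1 := hc4 (by rw [← hM, ← e, one_mul])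
    exact hik ⟨hi1, rfl⟩
  · apply hc5
    apply Nat.eq_of_mul_eq_mul_left (show 0 < q ^ 4 from pow_pos (by omega) 4)
    rw [e, hM]; ring

end Cfsg.Agent.H72.CS4
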