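import Mathlib
import Cfsg.Agent.H72.CS4.Struct
import Cfsg.Agent.S4212

/-!
# Existence of an isolated abelian Hall subgroup

If every element of order divisible by a prime divisor of `m` has a centralizer of order `m`, then there is
an isolated abelian Hall subgroup of order `m`.
-/

set_option autoImplicit false

namespace Cfsg.Agent.H72.CS4

open Subgroup Cfsg.Agent.H364 Pointwise

variable {G : Type*} [Group G]

theorem mem_cen {x y : G} : x ∈ centralizer ({y} : Set G) ↔ Commute x y := mem_centralizer_singleton_iff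

/-- an element commuting with a product of two commuting elements of coprime orders commutes with the factors -/
theorem commute_of_mul {x z w : G} (hxz : Commute x z) (hc : (orderOf x).Coprime (orderOf z)) (hw : Commute w (x * z)) :
    Commute w x := by
  have h1 : Commute w ((x * z) ^ orderOf z) := hw.pow_right _
  rw [hxz.mul_pow, pow_orderOf_eq_one, mul_one] at h1
  obtain ⟨k, hk⟩ := exists_pow_eq_self_of_coprime (n := orderOf z) (x := x) hc.symm
  rw [← hk]
  exact h1.pow_right k

theorem commute_of_parts {t u : G} {a b : ℕ} (hab : a.Coprime b) (h1 : Commute u (t ^ a)) (h2 : Commute u (t ^ b)) :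
    Commute u t := by
  have h3 : (t : G) = (t ^ a) ^ (Nat.gcdA a b) * (t ^ b) ^ (Nat.gcdB a b) := by
    have h4 := Nat.gcd_eq_gcd_ab a b
    rw [hab, Nat.cast_one] at h4
    calc t = t ^ (1 : ℤ) := (zpow_one t).symm
      _ = t ^ ((a : ℤ) * Nat.gcdA a b + b * Nat.gcdB a b) := by rw [← h4]
      _ = _ := by rw [zpow_add, zpow_mul, zpow_mul, zpow_natCast, zpow_natCast]
  rw [h3]
  exact (h1.zpow_right _).mul_right (h2.zpow_right _)

/-- the hypothesis -/
def CH (G : Type*) [Group G] (m : ℕ) : Prop :=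
  ∀ r, r.Prime → r ∣ m → ∀ y : G, r ∣ orderOf y → Nat.card (centralizer ({y} : Set G)) = m

theorem CH.edge [Finite G] {m : ℕ} (h : CH G m) {r s : ℕ} (hr : r.Prime) (_ : s.Prime) (hrm : r ∣ m)
    (hsm : ¬ s ∣ m) : NoEdge G r s := by
  intro x hx
  apply hsm
  rw [← h r hr hrm x (hx ▸ Dvd.intro _ rfl)]
  have h1 : x ∈ centralizer ({x} : Set G) := mem_cen.2 (Commute.refl x)
  have h2 := orderOf_dvd_natCard (⟨x, h1⟩ : centralizer ({x} : Set G))
  rw [Subgroup.orderOf_mk, hx] at h2
  exact (Dvd.intro_left _ rfl).trans h2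

/-- the elements of order prime to `r` in the centralizer of an element `z` of order `r` are central in it -/
theorem CH.central [Finite G] {m r : ℕ} (h : CH G m) (hr : r.Prime) (hrm : r ∣ m) {z : G} (hz : orderOf z = r)
    {x : G} (hx : x ∈ centralizer ({z} : Set G)) (hxr : (orderOf x).Coprime r) {t : G}
    (ht : t ∈ centralizer ({z} : Set G)) : Commute t x := by
  have hxz : Commute x z := mem_cen.1 hx
  have hcop : (orderOf x).Coprime (orderOf z) := by rw [hz]; exact hxr
  have ho : r ∣ orderOf (x * z) := by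
    rw [hxz.orderOf_mul_eq_mul_orderOf_of_coprime hcop, hz]
    exact Dvd.intro_left _ rfl
  have hle : centralizer ({x * z} : Set G) ≤ centralizer ({z} : Set G) := by
    intro w hw
    refine mem_cen.2 (commute_of_mul hxz.symm hcop.symm ?_)
    rw [← hxz.eq]
    exact mem_cen.1 hw
  have heq := Subgroup.eq_of_le_of_card_ge hle (by
    rw [h r hr hrm _ ho, h r hr hrm z (by rw [hz])])
  have h1 : t ∈ centralizer ({x * z} : Set G) := heq ▸ ht
  exact commute_of_mul hxz hcop (mem_cen.1 h1)

/-- a Sylow `r`-subgroup and a central element of order `r` -/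
theorem exists_central [Finite G] {r : ℕ} [hr : Fact r.Prime] (hrG : r ∣ Nat.card G) :
    ∃ (R : Sylow r G) (z : G), z ∈ (R : Subgroup G) ∧ orderOf z = r ∧ ∀ y ∈ (R : Subgroup G), Commute y z := by
  obtain ⟨R⟩ : Nonempty (Sylow r G) := inferInstance
  have hR : Nat.card R = r ^ (Nat.card G).factorization r := R.card_eq_multiplicity
  have hRn : Nontrivial (R : Subgroup G) := by
    rw [← Finite.one_lt_card_iff_nontrivial, hR]
    exact Nat.one_lt_pow ((hr.out.factorization_pos_of_dvd Nat.card_pos.ne' hrG).ne') hr.out.one_lt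
  have hz := (IsPGroup.center_nontrivial (p := r) R.isPGroup' : Nontrivial (center (R : Subgroup G)))
  have hd : r ∣ Nat.card (center (R : Subgroup G)) := by
    obtain ⟨k, hk⟩ := IsPGroup.iff_card.1 (R.isPGroup'.to_subgroup (center (R : Subgroup G)))
    rw [hk]
    refine dvd_pow_self r ?_
    rintro rfl
    rw [pow_zero] at hk
    have := Finite.one_lt_card_iff_nontrivial.2 hz
    omega
  obtain ⟨w, hw⟩ := exists_prime_orderOf_dvd_card' r hd
  refine ⟨R, ((w : (R : Subgroup G)) : G), (w : (R : Subgroup G)).2, ?_, ?_⟩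
  · rw [Subgroup.orderOf_coe, Subgroup.orderOf_coe, hw]
  · intro y hy
    exact congrArg Subtype.val (mem_center_iff.1 w.2 ⟨y, hy⟩)

/-- the case of two primes -/
theorem CH.abelian_two [Finite G] {m r s : ℕ} (h : CH G m) (hr : r.Prime) (hrm : r ∣ m) (hs : s.Prime) (hsm : s ∣ m)
    (hrs : s ≠ r) {z : G} (hz : orderOf z = r) {t u : G} (ht : t ∈ centralizer ({z} : Set G))
    (hu : u ∈ centralizer ({z} : Set G)) : Commute u t := by
  have := Fact.mk hs
  have hcard := h r hr hrm z (by rw [hz])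
  obtain ⟨x, hx⟩ := exists_prime_orderOf_dvd_card' (G := centralizer ({z} : Set G)) s (by rw [hcard]; exact hsm)
  have hxo : orderOf (x : G) = s := by rw [Subgroup.orderOf_coe, hx]
  have hle : centralizer ({z} : Set G) ≤ centralizer ({(x : G)} : Set G) := fun w hw =>
    mem_cen.2 (h.central hr hrm hz x.2 (by rw [hxo]; exact (Nat.coprime_primes hs hr).2 hrs) hw)
  have ht' := hle ht
  have hu' := hle hu
  have hn : orderOf t ≠ 0 := (orderOf_pos t).ne'
  have hcop : (r ^ (orderOf t).factorization r).Coprime (orderOf t / r ^ (orderOf t).factorization r) :=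
    Nat.Coprime.pow_left _ (Nat.coprime_ordCompl hr hn)
  refine commute_of_parts hcop ?_ ?_
  · have h1 : orderOf (t ^ r ^ (orderOf t).factorization r) = orderOf t / r ^ (orderOf t).factorization r :=
      orderOf_pow_of_dvd (pow_pos hr.pos _).ne' (Nat.ordProj_dvd _ r)
    refine h.central hr hrm hz (Subgroup.pow_mem _ ht _) ?_ hu
    rw [h1]
    exact (Nat.coprime_ordCompl hr hn).symm
  · have h1 : orderOf (t ^ (orderOf t / r ^ (orderOf t).factorization r)) = r ^ (orderOf t).factorization r := by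
      rw [orderOf_pow_of_dvd (Nat.ordCompl_pos r hn).ne' (Nat.ordCompl_dvd _ r)]
      exact Nat.div_div_self (Nat.ordProj_dvd _ r) hn
    refine h.central hs hsm hxo (Subgroup.pow_mem _ ht' _) ?_ hu'
    rw [h1]
    exact Nat.Coprime.pow_left _ ((Nat.coprime_primes hr hs).2 (Ne.symm hrs))

/-- Frobenius: the number of nontrivial `x` with `x ^ m = 1` -/
theorem frob [Finite G] {m : ℕ} (hm : m ∣ Nat.card G) : m ∣ Nat.card {x : G // x ^ m = 1} := by
  have h1 := Cfsg.Agent.S4212.result (1 : G) m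
  have h2 : Nat.card {y : G // IsConj 1 y} = 1 := by
    rw [Nat.card_eq_one_iff_unique]
    refine ⟨⟨fun a b => Subtype.ext ?_⟩, ⟨⟨1, IsConj.refl 1⟩⟩⟩
    rw [isConj_one_right.1 a.2, isConj_one_right.1 b.2]
  rw [h2, one_mul, Nat.gcd_eq_left hm] at h1
  have h3 : Nat.card {x : G // IsConj 1 (x ^ m)} = Nat.card {x : G // x ^ m = 1} :=
    Nat.card_congr (Equiv.subtypeEquivRight fun x => isConj_one_right)
  rwa [h3] at h1

/-- the case of a prime power: a Sylow subgroup of order `m` -/
theorem CH.abelian_one [Finite G] {m r a c : ℕ} (h : CH G m) (hr : r.Prime) (hma : m = r ^ a) (ha : a ≠ 0)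
    (h5 : 5 ≤ r) (hmG : m ∣ Nat.card G) (hc4 : c ≤ 4) (h4 : Nat.card G / m ≡ c [MOD m]) {R : Subgroup G}
    (hRm : Nat.card R = m) (hRc : ∀ P : Subgroup G, IsPGroup r P → Nat.card P = m → ∃ g : G,
      ∀ y, y ∈ P ↔ g⁻¹ * y * g ∈ R) : ∀ x ∈ R, ∀ y ∈ R, x * y = y * x := by
  have := Fact.mk hr
  have hrm : r ∣ m := hma ▸ dvd_pow_self r ha
  have hm0 : 0 < m := hRm ▸ Nat.card_pos
  obtain ⟨g, hg⟩ : ∃ g, g = Nat.card G / m := ⟨_, rfl⟩
  have hgm : m * g = Nat.card G := by rw [hg]; exact Nat.mul_div_cancel' hmG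
  have hg0 : 0 < g := by
    rcases Nat.eq_zero_or_pos g with h0 | h0
    · rw [h0, mul_zero] at hgm
      exact absurd hgm.symm Nat.card_pos.ne'
    · exact h0
  rw [← hg] at h4
  -- nontrivial `r`-elements
  have hord : ∀ x : G, x ^ m = 1 → x ≠ 1 → r ∣ orderOf x := by
    intro x hx hx1
    have h1 : orderOf x ∣ r ^ a := hma ▸ orderOf_dvd_of_pow_eq_one hx
    obtain ⟨j, -, hj⟩ := (Nat.dvd_prime_pow hr).1 h1
    rw [hj]
    apply dvd_pow_self
    rintro rfl
    rw [pow_zero, orderOf_eq_one_iff] at hj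
    exact hx1 hj
  let Y : Type _ := {x : G // x ^ m = 1 ∧ x ≠ 1}
  have hY : Nat.card {x : G // x ^ m = 1} = Nat.card Y + 1 := by
    classical
    have := Fintype.ofFinite G
    rw [Nat.card_eq_fintype_card, Nat.card_eq_fintype_card, Fintype.card_subtype, Fintype.card_subtype]
    have h1 : (Finset.univ.filter fun x : G => x ^ m = 1) =
        insert 1 (Finset.univ.filter fun x : G => x ^ m = 1 ∧ x ≠ 1) := by
      ext x
      simp only [Finset.mem_filter, Finset.mem_univ, true_and, Finset.mem_insert]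
      by_cases hx : x = 1
      · simp [hx]
      · simp [hx]
    rw [h1, Finset.card_insert_of_notMem (by simp)]
  let act : MulAction G Y :=
    { smul := fun g x => ⟨g * x.1 * g⁻¹, by rw [conj_pow, x.2.1]; simp, fun h0 => x.2.2 (by
        have : g⁻¹ * (g * x.1 * g⁻¹) * g = 1 := by rw [h0]; simp
        simpa [mul_assoc] using this)⟩
      one_smul := fun x => Subtype.ext (by change 1 * x.1 * 1⁻¹ = x.1; simp)
      mul_smul := fun g k x => Subtype.ext (by change (g * k) * x.1 * (g * k)⁻¹ = g * (k * x.1 * k⁻¹) * g⁻¹; group) }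
  have hstab : ∀ x : Y, Nat.card (MulAction.stabilizer G x) = m := by
    intro x
    rw [← h r hr hrm x.1 (hord x.1 x.2.1 x.2.2)]
    have h1 : MulAction.stabilizer G x = centralizer ({x.1} : Set G) := by
      ext y
      rw [MulAction.mem_stabilizer_iff, mem_cen]
      constructor
      · intro hy
        have h2 : y * x.1 * y⁻¹ = x.1 := congrArg Subtype.val hy
        exact mul_inv_eq_iff_eq_mul.1 h2
      · intro hy
        exact Subtype.ext (mul_inv_eq_iff_eq_mul.2 hy)
    rw [h1]
  obtain ⟨k, hk⟩ := Cfsg.Agent.Lib.ActCount.exists_card_mul (H := G) (Y := Y) m hstab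
  have hk1 : Nat.card Y = k * g := by
    apply Nat.eq_of_mul_eq_mul_left hm0
    rw [hk, ← hgm]; ring
  -- upper bound
  let Z : Type _ := {z : center R // z ≠ 1}
  have hZ : Nat.card (center R) = Nat.card Z + 1 := by
    classical
    have := Fintype.ofFinite (center R)
    rw [Nat.card_eq_fintype_card, Nat.card_eq_fintype_card, Fintype.card_subtype_compl, Fintype.card_subtype_eq]
    have : 0 < Fintype.card (center R) := Fintype.card_pos
    omega
  have hconj : ∀ x : Y, ∃ (z : Z) (g : G), x.1 = g * ((z.1 : R) : G) * g⁻¹ := by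
    intro x
    have hC := h r hr hrm x.1 (hord x.1 x.2.1 x.2.2)
    have hCp : IsPGroup r (centralizer ({x.1} : Set G)) := IsPGroup.of_card (n := a) (by rw [hC, hma])
    obtain ⟨g, hg⟩ := hRc _ hCp hC
    have h1 : g⁻¹ * x.1 * g ∈ R := (hg x.1).1 (mem_cen.2 (Commute.refl _))
    have h2 : (⟨g⁻¹ * x.1 * g, h1⟩ : R) ∈ center R := by
      rw [mem_center_iff]
      intro y
      apply Subtype.ext
      have h3 : g * y.1 * g⁻¹ ∈ centralizer ({x.1} : Set G) := (hg _).2 (by
        have : g⁻¹ * (g * (y : G) * g⁻¹) * g = y := by group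
        rw [this]; exact y.2)
      have h4 : g * y.1 * g⁻¹ * x.1 = x.1 * (g * y.1 * g⁻¹) := mem_cen.1 h3
      change (y : G) * (g⁻¹ * x.1 * g) = g⁻¹ * x.1 * g * y
      calc (y : G) * (g⁻¹ * x.1 * g) = g⁻¹ * (g * y.1 * g⁻¹ * x.1) * g := by group
        _ = g⁻¹ * (x.1 * (g * y.1 * g⁻¹)) * g := by rw [h4]
        _ = _ := by group
    refine ⟨⟨⟨_, h2⟩, fun h3 => ?_⟩, g, ?_⟩
    · have h4 : g⁻¹ * x.1 * g = 1 := congrArg (fun w : center R => ((w : R) : G)) h3
      apply x.2.2
      calc x.1 = g * (g⁻¹ * x.1 * g) * g⁻¹ := by group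
        _ = 1 := by rw [h4]; group
    · change x.1 = g * (g⁻¹ * x.1 * g) * g⁻¹
      group
  choose zf gf hzg using hconj
  have hinj : Function.Injective (fun x : Y => ((zf x, (QuotientGroup.mk (gf x) : G ⧸ R)) : Z × (G ⧸ R))) := by
    intro x y hxy
    have h1 : zf x = zf y := congrArg Prod.fst hxy
    have h2 : (QuotientGroup.mk (gf x) : G ⧸ R) = QuotientGroup.mk (gf y) := congrArg Prod.snd hxy
    have h3 : (gf x)⁻¹ * gf y ∈ R := QuotientGroup.eq.1 h2
    apply Subtype.ext
    rw [hzg x, hzg y, ← h1]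
    have h4 := congrArg Subtype.val (mem_center_iff.1 (zf x).1.2 ⟨_, h3⟩)
    change (gf x)⁻¹ * gf y * (((zf x).1 : R) : G) = (((zf x).1 : R) : G) * ((gf x)⁻¹ * gf y) at h4
    have h5 : gf y * (((zf x).1 : R) : G) * (gf y)⁻¹ =
        gf x * ((gf x)⁻¹ * gf y * (((zf x).1 : R) : G)) * (gf y)⁻¹ := by group
    rw [h5, h4]
    group
  have hle := Nat.card_le_card_of_injective _ hinj
  have hidx : Nat.card (G ⧸ R) = g := by
    have h1 := Subgroup.card_mul_index R
    rw [hRm, ← hgm] at h1
    rw [← Subgroup.index_eq_card]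
    exact Nat.eq_of_mul_eq_mul_left hm0 h1
  rw [Nat.card_prod, hidx, hk1] at hle
  have hkZ : k ≤ Nat.card Z := Nat.le_of_mul_le_mul_right hle hg0
  -- the congruence
  have hF := frob hmG
  rw [hY, hk1] at hF
  have h6 : m ∣ k * c + 1 := by
    have h7 : k * g + 1 ≡ k * c + 1 [MOD m] := (h4.mul_left k).add_right 1
    have h8 := (Nat.modEq_zero_iff_dvd.2 hF)
    exact Nat.modEq_zero_iff_dvd.1 (h7.symm.trans h8)
  have h7 := Nat.le_of_dvd (by omega) h6
  have h70 : k * c ≤ k * 4 := Nat.mul_le_mul_left _ hc4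
  have h8 : Nat.card (center R) ∣ m := hRm ▸ Subgroup.card_subgroup_dvd_card _
  have h9 : center R = ⊤ := by
    apply Subgroup.eq_top_of_card_eq
    rw [hRm]
    obtain ⟨j, hj⟩ := h8
    rcases Nat.lt_or_ge 1 j with hj1 | hj1
    · exfalso
      obtain ⟨q, hq, hqj⟩ := Nat.exists_prime_and_dvd hj1.ne'
      have h10 : q ∣ r ^ a := by rw [← hma, hj]; exact hqj.mul_left _
      have h11 := (Nat.prime_dvd_prime_iff_eq hq hr).1 (hq.dvd_of_dvd_pow h10)
      have h12 : 5 ≤ j := by
        have := Nat.le_of_dvd (by omega) hqj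
        omega
      have h13 : Nat.card (center R) * 5 ≤ m := by
        rw [hj]; exact Nat.mul_le_mul_left _ h12
      omega
    · have : j ≠ 0 := by rintro rfl; omega
      have : j = 1 := by omega
      rw [hj, this, mul_one]
  intro x hx y hy
  have h10 : (⟨y, hy⟩ : R) ∈ center R := h9 ▸ mem_top _
  exact congrArg Subtype.val (mem_center_iff.1 h10 ⟨x, hx⟩)

/-- **Existence of the isolated subgroup.** -/
theorem CH.exists_isol [Finite G] {m c : ℕ} (h : CH G m) (hm : 1 < m) (hmG : m ∣ Nat.card G)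
    (hcop : m.Coprime (Nat.card G / m)) (hc4 : c ≤ 4) (h4 : Nat.card G / m ≡ c [MOD m]) (h5 : ∀ r, r.Prime → r ∣ m → 5 ≤ r) :
    ∃ T : Subgroup G, IsolA G T m := by
  have hedge : ∀ r s : ℕ, r.Prime → s.Prime → r ∣ m → ¬ s ∣ m → NoEdge G r s :=
    fun r s hr hs hrm hsm => h.edge hr hs hrm hsm
  obtain ⟨r, hr, hrm⟩ := Nat.exists_prime_and_dvd hm.ne'
  have := Fact.mk hr
  by_cases hex : ∃ s, s.Prime ∧ s ∣ m ∧ s ≠ r
  · obtain ⟨s, hs, hsm, hsr⟩ := hex
    obtain ⟨z, hz⟩ := exists_prime_orderOf_dvd_card' r (hrm.trans hmG)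
    exact ⟨centralizer ({z} : Set G), fun a ha b hb => h.abelian_two hr hrm hs hsm hsr hz hb ha,
      h r hr hrm z (by rw [hz]), hcop, hedge⟩
  · push Not at hex
    have hma : m = r ^ m.factorization r := by
      have h1 : m = r ^ m.primeFactorsList.length :=
        Nat.eq_prime_pow_of_unique_prime_dvd (by omega) fun {d} hd hdm => hex d hd hdm
      have h2 : m.factorization r = m.primeFactorsList.length := by
        conv_lhs => rw [h1]
        rw [hr.factorization_pow, Finsupp.single_eq_same]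
      rw [h2]
      exact h1
    have ha : m.factorization r ≠ 0 := (hr.factorization_pos_of_dvd (by omega) hrm).ne'
    obtain ⟨R⟩ : Nonempty (Sylow r G) := inferInstance
    have hfac : (Nat.card G).factorization r = m.factorization r := by
      have h1 : Nat.card G = m * (Nat.card G / m) := (Nat.mul_div_cancel' hmG).symm
      have h2 : Nat.card G / m ≠ 0 := fun h0 => by
        rw [h0, mul_zero] at h1; exact Nat.card_pos.ne' h1
      have h3 : ¬ r ∣ Nat.card G / m := fun h3 => by
        have := Nat.dvd_gcd hrm h3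
        rw [hcop] at this
        exact hr.one_lt.ne' (Nat.dvd_one.1 this)
      rw [h1, Nat.factorization_mul (by omega) h2, Finsupp.add_apply, Nat.factorization_eq_zero_of_not_dvd h3, add_zero]
    have hRm : Nat.card (R : Subgroup G) = m := by
      have h1 : Nat.card R = r ^ (Nat.card G).factorization r := R.card_eq_multiplicity
      rw [hfac, ← hma] at h1
      exact h1
    refine ⟨R, h.abelian_one hr hma ha (h5 r hr hrm) hmG hc4 h4 hRm ?_, hRm, hcop, hedge⟩
    intro P hP hPm
    obtain ⟨P', hP'⟩ := hP.exists_le_sylow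
    have hPP : P = P' := Subgroup.eq_of_le_of_card_ge hP' (by
      rw [hPm]
      have h1 : Nat.card P' = r ^ (Nat.card G).factorization r := P'.card_eq_multiplicity
      rw [hfac, ← hma] at h1
      exact h1.le)
    obtain ⟨g, hg⟩ := MulAction.exists_smul_eq G R P'
    refine ⟨g, fun y => ?_⟩
    rw [hPP, ← hg]
    change y ∈ MulAut.conj g • (R : Subgroup G) ↔ _
    rw [Subgroup.mem_pointwise_smul_iff_inv_smul_mem, ← map_inv, MulAut.smul_def, MulAut.conj_apply, inv_inv]

/-- **Structure theorem from centralizer orders**: `m > 1` odd, Hall, all elements of order divisible by a prime divisor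
of `m` have centralizers of order `m`, `|G| / m ≡ c mod m` with `c ≤ 4`, all primes dividing `m` are at least `5`. -/
theorem CH.struct [Finite G] {m c : ℕ} (h : CH G m) (hm : 1 < m) (hmG : m ∣ Nat.card G)
    (hcop : m.Coprime (Nat.card G / m)) (hc4 : c ≤ 4) (hc0 : c ≠ 0) (h4 : Nat.card G / m ≡ c [MOD m])
    (h5 : ∀ r, r.Prime → r ∣ m → 5 ≤ r) :
    ∃ (K : Subgroup G) (_ : K.Normal), (Nat.card K).Coprime m ∧
      (∀ t, t.Prime → m ∣ t ^ (Nat.card K).factorization t - 1) ∧
      (Nat.card G = Nat.card K * (m * c) ∨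
        ∃ N : Subgroup (G ⧸ K), N.Normal ∧ IsSimpleGroup N ∧ (¬ ∀ a b : N, a * b = b * a) ∧
          centralizer (N : Set (G ⧸ K)) = ⊥ ∧ m ∣ Nat.card N ∧ ∃ n', 1 < n' ∧ n' * N.index = c) := by
  obtain ⟨T, hT⟩ := h.exists_isol hm hmG hcop hc4 h4 h5
  have h2 : ¬ 2 ∣ m := fun h2 => by have := h5 2 Nat.prime_two h2; omega
  obtain ⟨K, hK, n, hKm, hparts, hn, hcases⟩ := hT.struct hm h2
  have hnc : n = c := by
    obtain ⟨r, hr, hrm⟩ := Nat.exists_prime_and_dvd hm.ne'
    obtain ⟨h6, h7⟩ := hn r hr hrm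
    have h8 : n ≡ c [MOD r ^ m.factorization r] := h7.symm.trans (h4.of_dvd (Nat.ordProj_dvd m r))
    have h9 : 5 ≤ r ^ m.factorization r :=
      (h5 r hr hrm).trans (Nat.le_self_pow (hr.factorization_pos_of_dvd (by omega) hrm).ne' r)
    have h10 : n < r ^ m.factorization r := by
      have := Nat.le_of_dvd (by omega) h6
      omega
    exact Nat.ModEq.eq_of_lt_of_lt h8 h10 (by omega)
  subst hnc
  exact ⟨K, hK, hKm, hparts, hcases⟩

end Cfsg.Agent.H72.CS4
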