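import Mathlib
import Cfsg.Agent.H72.CS4.Tor
import Cfsg.Agent.H72.CS4.Num
import Cfsg.Agent.H72.CS4.Index
import Cfsg.Agent.H510.CS.PSpLat
import Cfsg.Agent.H402.AltGrp

/-!
# A group with the order and the class sizes of `PSp₄(q)`, `q ≥ 4`, is simple
-/

set_option autoImplicit false

namespace Cfsg.Agent.H72.CS4

open Cfsg Cfsg.Agent.H902 Cfsg.Agent.H902.Art Cfsg.Agent.OrdDiv Subgroup Cfsg.Agent.H364 Cfsg.Agent.H365.SpFour
open Cfsg.Agent.H431.CS Cfsg.Agent.H370.AAM

universe u v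

/-- the order of `PSp₄(q)`, any universe -/
theorem psp_real' {F : Type v} [Field F] [Fintype F] {p f : ℕ} (hp : p.Prime) (hf : 1 ≤ f)
    (hF : Fintype.card F = p ^ f) (h3 : 3 ≤ p ^ f) : Art.Real (.C 2) p f (Nat.card (PSp 2 F)) := by
  refine ⟨hp, hf, ⟨le_rfl, fun _ => h3⟩, ?_⟩
  have h1 := S0245.result (F := F) hF 2
  have h2 := S0246.result (F := F) hF 2 (by omega)
  have h3 := Subgroup.card_eq_card_quotient_mul_card_subgroup
    (Subgroup.center (Matrix.symplecticGroup (Fin 2) F))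
  rw [h1, h2] at h3
  change Nat.gcd 2 (p ^ f - 1) * Nat.card (PSp 2 F) = _
  rw [mul_comm]
  exact h3.symm

/-- the order of `q` modulo a prime divisor of `q² + 1` -/
theorem order_four {q r : ℕ} (hq : 2 ≤ q) (hr : r.Prime) (hrm : r ∣ tt q) : orderOf ((q : ℕ) : ZMod r) = 2 * 2 := by
  have := Fact.mk hr
  have hd : r ∣ q ^ 2 + 1 := hrm.trans (tt_dvd hq)
  have h1 : ((q : ZMod r)) ^ 2 = -1 := by
    have := (ZMod.natCast_eq_zero_iff (q ^ 2 + 1) r).2 hd
    push_cast at this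
    exact eq_neg_of_add_eq_zero_left this
  have hr2 : r ≠ 2 := fun h => two_tt hq (h ▸ hrm)
  have h2 : (-1 : ZMod r) ≠ 1 := by
    have : Fact (2 < r) := ⟨by have := hr.two_le; omega⟩
    exact ZMod.neg_one_ne_one
  have h3 := orderOf_eq_prime_pow (p := 2) (n := 1) (x := (q : ZMod r)) (by
    rw [pow_one, h1]; exact h2) (by
    rw [show (2 : ℕ) ^ (1 + 1) = 2 * 2 by norm_num, pow_mul, h1]; norm_num)
  rw [h3]; norm_num

theorem five_le {q r : ℕ} (hq : 2 ≤ q) (hr : r.Prime) (hrm : r ∣ tt q) : 5 ≤ r := by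
  have h6 := (tt_coprime_six hq).coprime_dvd_left hrm
  have h2 : r ≠ 2 := by rintro rfl; revert h6; decide
  have h3 : r ≠ 3 := by rintro rfl; revert h6; decide
  have h4 : r ≠ 4 := by rintro rfl; revert hr; decide
  have := hr.two_le
  omega

/-- the centralizer orders of `G` -/
theorem ch {G : Type u} [Group G] [Finite G] {F : Type v} [Field F] [Fintype F] {p f : ℕ} (hp : p.Prime) (hf : 1 ≤ f)
    (hF : Fintype.card F = p ^ f) (h : Same G (PSp 2 F)) : CH G (tt (p ^ f)) := by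
  have hq : 2 ≤ p ^ f := hp.two_le.trans (Nat.le_self_pow (by omega) p)
  intro r hr hrm y hy
  have h1 := H510.CS.lat_psp_top (n := 2) hp hf hF le_rfl hr (order_four hq hr hrm)
  refine h1.card_cent hr hp ?_ h hy
  rintro rfl
  have h2 : r ∣ r ^ f := dvd_pow_self r (by omega)
  have := Nat.dvd_gcd hrm h2
  rw [cop_q hq] at this
  exact hr.one_lt.ne' (Nat.dvd_one.1 this)

theorem four_mod {q : ℕ} (hq : 2 ≤ q) : q ^ 4 * (q ^ 2 - 1) ^ 2 ≡ 4 [MOD tt q] := by
  refine Nat.ModEq.of_dvd (tt_dvd hq) ?_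
  have h1 : 1 ≤ q ^ 2 := Nat.one_le_pow _ _ (by omega)
  rw [← ZMod.natCast_eq_natCast_iff]
  have h5 : ((q : ZMod (q ^ 2 + 1))) ^ 2 + 1 = 0 := by
    have := (ZMod.natCast_eq_zero_iff (q ^ 2 + 1) (q ^ 2 + 1)).2 dvd_rfl
    push_cast at this
    exact this
  rw [Nat.cast_mul, Nat.cast_pow, Nat.cast_pow, Nat.cast_sub h1]
  push_cast
  linear_combination ((q : ZMod (q ^ 2 + 1)) ^ 6 - 3 * q ^ 4 + 4 * q ^ 2 - 4) * h5

/-- the structure theorem -/
theorem struct {G : Type u} [Group G] [Finite G] {F : Type v} [Field F] [Fintype F] {p f : ℕ} (hp : p.Prime)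
    (hf : 1 ≤ f) (hF : Fintype.card F = p ^ f) (h3 : 3 ≤ p ^ f) (h : Same G (PSp 2 F)) :
    ∃ (K : Subgroup G) (_ : K.Normal), (Nat.card K).Coprime (tt (p ^ f)) ∧
      (∀ t, t.Prime → tt (p ^ f) ∣ t ^ (Nat.card K).factorization t - 1) ∧
      (Nat.card G = Nat.card K * (tt (p ^ f) * 4) ∨
        ∃ N : Subgroup (G ⧸ K), N.Normal ∧ IsSimpleGroup N ∧ (¬ ∀ a b : N, a * b = b * a) ∧
          centralizer (N : Set (G ⧸ K)) = ⊥ ∧ tt (p ^ f) ∣ Nat.card N ∧ ∃ n', 1 < n' ∧ n' * N.index = 4) := by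
  have hq : 2 ≤ p ^ f := by omega
  have hY := psp_real' (F := F) hp hf hF h3
  rw [← h.card] at hY
  have hcard := card_mul hY
  have htt := tt_ge h3
  have hdiv : Nat.card G / tt (p ^ f) = (p ^ f) ^ 4 * ((p ^ f) ^ 2 - 1) ^ 2 := by
    rw [hcard, Nat.mul_div_cancel _ (by omega)]
  exact (ch hp hf hF h).struct (by omega) (hcard ▸ Dvd.intro_left _ rfl)
    (by rw [hdiv]; exact Nat.Coprime.mul_right ((cop_q hq).pow_right 4) ((cop_sq hq).pow_right 2))
    le_rfl (by norm_num) (by rw [hdiv]; exact four_mod hq) (fun r hr hrm => five_le hq hr hrm)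

/-- no edge between a prime divisor of `m` and another prime, in the quotient -/
theorem edge_quot {G : Type u} [Group G] [Finite G] {m : ℕ} (h : CH G m) (K : Subgroup G) [K.Normal] {r s : ℕ}
    (hr : r.Prime) (hs : s.Prime) (hrm : r ∣ m) (hsm : ¬ s ∣ m) : NoEdge (G ⧸ K) r s :=
  noEdge_quotient K (h.edge hr hs hrm hsm)

theorem simple_of {G : Type u} [Group G] [Finite G] {F : Type v} [Field F] [Fintype F] {p f : ℕ} (hp : p.Prime)
    (hf : 1 ≤ f) (hF : Fintype.card F = p ^ f) (h4 : 4 ≤ p ^ f) (h : Same G (PSp 2 F)) (TT : OrderTable.{u})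
    (hk : ∀ (S : Type u) [Group S] [Finite S] [IsSimpleGroup S], IsKnownSimple' S) : IsSimpleGroup G := by
  have hCH := ch hp hf hF h
  obtain ⟨K, hKn, hKm, hparts, hcases⟩ := struct hp hf hF (by omega) h
  have hY := psp_real' (F := F) hp hf hF (by omega)
  rw [← h.card] at hY
  have hedge := fun (r s : ℕ) (hr : r.Prime) (hs : s.Prime) (hrm : r ∣ tt (p ^ f)) (hsm : ¬ s ∣ tt (p ^ f)) =>
    edge_quot hCH K hr hs hrm hsm
  have hcard := card_mul hY
  obtain ⟨r, hr, hrm, hro, hrz⟩ := exists_zsig hp hf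
  obtain ⟨q, hq⟩ : ∃ q, q = p ^ f := ⟨_, rfl⟩
  rw [← hq] at hKm hparts hcases hcard hrm h4 hedge
  have hq2 : 2 ≤ q := by omega
  have htt := tt_ge (q := q) (by omega)
  have hKG : Nat.card K ∣ Nat.card G := Subgroup.card_subgroup_dvd_card K
  have hpq : p ∣ q := by rw [hq]; exact dvd_pow_self p (by omega)
  have hpt : ¬ p ∣ tt q := fun h => by
    have := Nat.dvd_gcd h hpq
    rw [cop_q hq2] at this
    exact hp.one_lt.ne' (Nat.dvd_one.1 this)
  have hps : ¬ p ∣ (q ^ 2 - 1) ^ 2 := fun h => by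
    have h1 := hp.dvd_of_dvd_pow h
    have h2 : p ∣ q ^ 2 := dvd_pow hpq (by norm_num)
    have h3 : 1 ≤ q ^ 2 := Nat.one_le_pow _ _ (by omega)
    have h5 := (Nat.dvd_sub_iff_right (by omega) h2).1 (show p ∣ q ^ 2 - 1 from h1)
    exact hp.one_lt.ne' (Nat.dvd_one.1 h5)
  -- the primes `v ≠ p`
  have hother : ∀ v : ℕ, v.Prime → v ≠ p → (Nat.card K).factorization v = 0 := by
    intro v hv hvp
    have h1 : v ^ (Nat.card K).factorization v ∣ q ^ 4 * (q ^ 2 - 1) ^ 2 * tt q := by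
      rw [← hcard]
      exact (Nat.ordProj_dvd _ v).trans hKG
    have h2 : Nat.Coprime (v ^ (Nat.card K).factorization v) (tt q) :=
      Nat.Coprime.coprime_dvd_left (Nat.ordProj_dvd _ v) hKm
    have h3 := h2.dvd_of_dvd_mul_right h1
    have h5 : Nat.Coprime (v ^ (Nat.card K).factorization v) (q ^ 4) := by
      rw [hq]
      exact Nat.Coprime.pow_left _ (((Nat.coprime_primes hv hp).2 hvp).pow_right _ |>.pow_right _)
    have h6 := h5.dvd_of_dvd_mul_left h3
    by_cases hv2 : v = 2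
    · subst hv2
      have hodd : Odd q := by
        rw [hq]
        exact (hp.eq_two_or_odd'.resolve_left fun h => hvp h.symm).pow
      obtain ⟨m, hm⟩ := hodd
      rw [hm] at h6
      have h7 := hparts 2 hv
      rw [hm] at h7
      exact two_part (by omega) h6 h7
    · exact odd_part (by omega) hv hv2 h6 (hparts v hv)
  have hKpow : Nat.card K = p ^ (Nat.card K).factorization p := by
    by_contra hne
    have h1 : (Nat.card K) / p ^ (Nat.card K).factorization p ≠ 1 := by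
      intro h
      apply hne
      have h2 := Nat.ordProj_mul_ordCompl_eq_self (Nat.card K) p
      rw [h, mul_one] at h2
      exact h2.symm
    obtain ⟨v, hv, hvd⟩ := Nat.exists_prime_and_dvd h1
    have hvp : v ≠ p := by
      rintro rfl
      exact (Nat.not_dvd_ordCompl hv Nat.card_pos.ne') hvd
    have h2 : v ∣ Nat.card K := hvd.trans (Nat.ordCompl_dvd _ _)
    have h3 := hv.factorization_pos_of_dvd Nat.card_pos.ne' h2
    rw [hother v hv hvp] at h3
    omega
  -- the `p`-part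
  have hKp : Nat.card K = 1 ∨ Nat.card K = q ^ 4 := by
    have h1 : 4 * f ∣ (Nat.card K).factorization p := (hrz _).1 (hrm.trans (hparts p hp))
    have h2 : p ^ (Nat.card K).factorization p ∣ p ^ (4 * f) := by
      have h3 : p ^ (Nat.card K).factorization p ∣ q ^ 4 * ((q ^ 2 - 1) ^ 2 * tt q) := by
        rw [← mul_assoc, ← hcard]
        exact (Nat.ordProj_dvd _ p).trans hKG
      have h5 : Nat.Coprime (p ^ (Nat.card K).factorization p) ((q ^ 2 - 1) ^ 2 * tt q) := by
        apply Nat.Coprime.pow_left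
        rw [Nat.Prime.coprime_iff_not_dvd hp, Nat.Prime.dvd_mul hp]
        tauto
      have h6 := h5.dvd_of_dvd_mul_right h3
      rw [hq, ← pow_mul, mul_comm f 4] at h6
      exact h6
    have h3 := (Nat.pow_dvd_pow_iff_le_right hp.one_lt).1 h2
    obtain ⟨j, hj⟩ := h1
    have h5 : j = 0 ∨ j = 1 := by
      have h6 : 4 * f * j ≤ 4 * f * 1 := by omega
      have := Nat.le_of_mul_le_mul_left h6 (by omega)
      omega
    rcases h5 with rfl | rfl
    · left; rw [hKpow, hj, mul_zero, pow_zero]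
    · right; rw [hKpow, hj, mul_one, hq, ← pow_mul, mul_comm f 4]
  have hGK : Nat.card G = Nat.card K * Nat.card (G ⧸ K) := by
    rw [← Subgroup.card_mul_index K, Subgroup.index_eq_card]
  have hsq1 : 225 ≤ (q ^ 2 - 1) ^ 2 := by
    have h9 : 4 ^ 2 ≤ q ^ 2 := Nat.pow_le_pow_left h4 2
    calc 225 = 15 ^ 2 := by norm_num
      _ ≤ _ := Nat.pow_le_pow_left (by omega) 2
  have hq4 : 256 ≤ q ^ 4 := by
    calc 256 = 4 ^ 4 := by norm_num
      _ ≤ _ := Nat.pow_le_pow_left h4 4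
  rcases hcases with hA | ⟨N, hNn, hNs, hNna, hNc, hNm, n', hn', hidx⟩
  · exfalso
    rw [hcard] at hA
    rcases hKp with h1 | h1
    · rw [h1, one_mul] at hA
      have h2 : tt q * (q ^ 4 * (q ^ 2 - 1) ^ 2) = tt q * 4 := by rw [← hA]; ring
      have h3 := Nat.eq_of_mul_eq_mul_left (by omega) h2
      have h5 : 256 * 225 ≤ q ^ 4 * (q ^ 2 - 1) ^ 2 := Nat.mul_le_mul hq4 hsq1
      omega
    · rw [h1] at hA
      have h2 : (q ^ 4 * tt q) * (q ^ 2 - 1) ^ 2 = (q ^ 4 * tt q) * 4 := by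
        calc (q ^ 4 * tt q) * (q ^ 2 - 1) ^ 2 = q ^ 4 * (q ^ 2 - 1) ^ 2 * tt q := by ring
          _ = _ := by rw [hA]; ring
      have h3 := Nat.eq_of_mul_eq_mul_left (Nat.mul_pos (by omega) (by omega)) h2
      omega
  have hi : N.index = 1 ∨ N.index = 2 := by
    have h1 : N.index ∣ 2 ^ 2 := Dvd.intro_left _ hidx
    obtain ⟨j, hj, h2⟩ := (Nat.dvd_prime_pow Nat.prime_two).1 h1
    have h3 : N.index ≤ 2 := by
      by_contra h5
      have h6 : 2 * 3 ≤ n' * N.index := Nat.mul_le_mul (by omega) (by omega)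
      omega
    have h5 : N.index ≠ 0 := Subgroup.index_ne_zero_of_finite
    omega
  have hNi : Nat.card N * N.index = Nat.card (G ⧸ K) := Subgroup.card_mul_index N
  -- the simple case
  by_cases hsim : N.index = 1 ∧ Nat.card K = 1
  · obtain ⟨hi, hK1⟩ := hsim
    have hNtop : N = ⊤ := Subgroup.index_eq_one.1 hi
    subst hNtop
    have eN : (⊤ : Subgroup (G ⧸ K)) ≃* G ⧸ K := Subgroup.topEquiv
    have hKbot : K = ⊥ := Subgroup.card_eq_one.1 hK1
    subst hKbot
    have e : (⊤ : Subgroup (G ⧸ (⊥ : Subgroup G))) ≃* G := eN.trans QuotientGroup.quotientBot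
    have : Nontrivial G := e.symm.toEquiv.nontrivial
    exact IsSimpleGroup.isSimpleGroup_of_surjective e.toMonoidHom e.surjective
  exfalso
  have hNG : Nat.card K * (Nat.card N * N.index) = Nat.card G := by rw [hNi, ← hGK]
  have hkn := Names.exists_nam TT (hk N) hNna
  rcases hkn with ⟨n, hn, hr', hc⟩ | ⟨g, X, w, k, hg, hr', hX⟩ | ⟨x, hx, hr', hc⟩
  · refine alt_false hY (by rw [← hq]; exact h4) hn hi (by rw [← hq]; exact hKp) hsim
      (by rw [← hc, ← hNG]; ring) ?_
    intro s hs hsm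
    rw [← hq] at hsm
    by_contra hcon
    obtain ⟨ea⟩ := hr'
    have hs5 := five_le hq2 hs hsm
    obtain ⟨g, hg⟩ := Cfsg.Agent.H402.AltG.exists_two (m := n) hs Nat.prime_three (by omega) (by omega) (by norm_num)
      (by omega)
    refine hedge s 3 hs Nat.prime_three hsm ?_ ((ea.symm g : N) : G ⧸ K) ?_
    · intro h3
      have h33 : (3 : ℕ) ∣ Nat.gcd (tt q) 6 := Nat.dvd_gcd h3 (by norm_num)
      rw [tt_coprime_six hq2] at h33
      exact absurd h33 (by norm_num)
    · rw [Subgroup.orderOf_coe, MulEquiv.orderOf_eq, hg]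
  · rcases hKp with hK1 | hK1
    · -- the kernel is trivial
      have hi2 : N.index = 2 := by tauto
      rw [hK1, one_mul, hi2] at hNG
      by_cases hwp : w = p
      · subst hwp
        exact same_char hX hY hNG hr hro (hrm.trans hNm)
      · exact other_char hX hY hwp hNG (by rw [← hq]; exact h4)
    · -- the kernel is a Sylow subgroup
      rw [hcard, hK1] at hGK
      have h1 : Nat.card (G ⧸ K) = tt q * (q ^ 2 - 1) ^ 2 := by
        have h2 : q ^ 4 * Nat.card (G ⧸ K) = q ^ 4 * (tt q * (q ^ 2 - 1) ^ 2) := by rw [← hGK]; ring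
        exact Nat.eq_of_mul_eq_mul_left (by omega) h2
      rw [h1] at hNi
      rcases Nat.even_or_odd q with he | ho
      · have h2 : 2 ∣ Nat.card N := two_dvd_card hNna
        have h3 : 2 ∣ tt q * (q ^ 2 - 1) ^ 2 := by rw [← hNi]; exact h2.mul_right _
        rcases Nat.prime_two.dvd_mul.1 h3 with h5 | h5
        · exact two_tt hq2 h5
        · have h6 := Nat.prime_two.dvd_of_dvd_pow h5
          have h7 : Even (q ^ 2) := he.pow_of_ne_zero (by norm_num)
          have h8 : 1 ≤ q ^ 2 := Nat.one_le_pow _ _ (by omega)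
          obtain ⟨c, hc⟩ := h7
          omega
      · obtain ⟨m, hm⟩ := ho
        rw [hm, N0_eq m (by omega)] at hNi
        exact no_full (by omega) hi hNi hX
  · exact spor_false hY hx hi (by rw [← hq]; exact hKp) hsim (by rw [← hc, ← hNG])

end Cfsg.Agent.H72.CS4
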