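import Mathlib
import Cfsg.Agent.H72.CS4.Main
import Cfsg.Agent.H374.SpFour
import Cfsg.Agent.S0033

/-!
# A group with the order and the class sizes of `PSp₄(3)` is simple
-/

set_option autoImplicit false

namespace Cfsg.Agent.H72.CS4

open Cfsg Cfsg.Agent.H902 Cfsg.Agent.H902.Art Cfsg.Agent.OrdDiv Subgroup Cfsg.Agent.H364 Cfsg.Agent.H365.SpFour
open Cfsg.Agent.H431.CS Cfsg.Agent.H370.AAM

universe u v

/-- normal subgroups of order prime to `m` are nilpotent -/
theorem CH.nilpotent {G : Type*} [Group G] [Finite G] {m : ℕ} (h : CH G m) (hm : 1 < m) (hmG : m ∣ Nat.card G)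
    {K : Subgroup G} [K.Normal] (hKm : (Nat.card K).Coprime m) : Group.IsNilpotent K := by
  obtain ⟨r, hr, hrm⟩ := Nat.exists_prime_and_dvd hm.ne'
  have := Fact.mk hr
  obtain ⟨x, hx⟩ := exists_prime_orderOf_dvd_card' r (hrm.trans hmG)
  have hfix : ∀ k ∈ K, x * k * x⁻¹ = k → k = 1 := by
    intro k hk hxk
    by_contra hk1
    obtain ⟨s, hs, hsk⟩ := Nat.exists_prime_and_dvd (n := orderOf k) (fun h1 => hk1 (orderOf_eq_one_iff.1 h1))
    have hsK : s ∣ Nat.card K := by
      have h1 := orderOf_dvd_natCard (⟨k, hk⟩ : K)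
      rw [Subgroup.orderOf_mk] at h1
      exact hsk.trans h1
    have hsm : ¬ s ∣ m := fun h1 => hs.one_lt.ne' (Nat.dvd_one.1 (hKm ▸ Nat.dvd_gcd hsK h1))
    have hc : Commute x k := mul_inv_eq_iff_eq_mul.1 hxk
    refine (h.edge hr hs hrm hsm).false_of_dvd hr hs ?_ hc (by rw [hx]) hsk
    rintro rfl
    exact hsm hrm
  by_cases hKb : K = ⊥
  · subst hKb
    infer_instance
  let φ : K ≃* K := MulAut.conjNormal x
  have hφ : ∀ k : K, ((φ k : K) : G) = x * k * x⁻¹ := fun k => MulAut.conjNormal_apply x k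
  refine Cfsg.Agent.S0033.result φ ?_ r hr ?_
  · intro k hk
    apply Subtype.ext
    refine hfix k k.2 ?_
    rw [← hφ]
    exact congrArg Subtype.val hk
  · refine orderOf_eq_prime ?_ ?_
    · show (MulAut.conjNormal x : MulAut K) ^ r = 1
      rw [← map_pow, ← hx, pow_orderOf_eq_one, map_one]
    · intro h1
      apply hKb
      rw [eq_bot_iff]
      intro k hk
      rw [mem_bot]
      refine hfix k hk ?_
      rw [← hφ ⟨k, hk⟩, h1]
      rfl

/-- in a nilpotent group elements of orders `3 ^ j` and `2` commute -/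
theorem commute_of_nilpotent {K : Type*} [Group K] [Finite K] (hK : Group.IsNilpotent K) {x y : K} {i j : ℕ}
    (hx : orderOf x = 3 ^ i) (hy : orderOf y = 2 ^ j) : Commute x y := by
  have hall := (Group.isNilpotent_of_finite_tfae (G := K)).out 0 3
  have hsyl : ∀ (t : ℕ) (_ : Fact t.Prime) (P : Sylow t K), P.Normal := hall.1 hK
  have f2 : Fact (Nat.Prime 2) := ⟨Nat.prime_two⟩
  have f3 : Fact (Nat.Prime 3) := ⟨Nat.prime_three⟩
  have hxp : IsPGroup 3 (zpowers x) := IsPGroup.of_card (n := i) (by rw [Nat.card_zpowers, hx])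
  have hyp : IsPGroup 2 (zpowers y) := IsPGroup.of_card (n := j) (by rw [Nat.card_zpowers, hy])
  obtain ⟨P, hP⟩ := hxp.exists_le_sylow
  obtain ⟨Q, hQ⟩ := hyp.exists_le_sylow
  have hPn := hsyl 3 f3 P
  have hQn := hsyl 2 f2 Q
  have hd : Disjoint (P : Subgroup K) (Q : Subgroup K) :=
    IsPGroup.disjoint_of_ne 3 2 (by norm_num) _ _ P.isPGroup' Q.isPGroup'
  exact Subgroup.commute_of_normal_of_disjoint _ _ hPn hQn hd x y (hP (mem_zpowers x)) (hQ (mem_zpowers y))

theorem fac_of {p A k : ℕ} (hp : p.Prime) (hA : A ≠ 0) (h1 : p ^ k ∣ A) (h2 : ¬ p ^ (k + 1) ∣ A) :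
    A.factorization p = k := by
  have h3 := (hp.pow_dvd_iff_le_factorization hA).1 h1
  by_contra hcon
  exact h2 ((hp.pow_dvd_iff_le_factorization hA).2 (by omega))

theorem cands_25920 : (cands [(2,6),(3,4),(5,1)] 25920).all (fun g => (ordN g % 5 != 0) || (ordN g == 60) || (ordN g == 360) ||
    (ordN g == 25920)) = true := by decide +kernel

/-- `PSp₄(3)` has a nontrivial element whose centralizer is a `3`-group -/
theorem exists_three {F : Type v} [Field F] [Fintype F] (h3 : Fintype.card F = 3) :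
    ∃ (x : PSp 2 F) (j : ℕ), x ≠ 1 ∧ Nat.card (centralizer ({x} : Set (PSp 2 F))) = 3 ^ j ∧ j ≠ 0 := by
  have hcard : Nat.card (PSp 2 F) = 25920 := by
    rw [card_mul (psp_real' (F := F) (p := 3) (f := 1) Nat.prime_three le_rfl (by rw [h3]; norm_num) (by norm_num))]
    decide
  have hspec' : ∀ m, m ∈ Set.range (orderOf : PSp 2 F → ℕ) ↔ Cfsg.Agent.H374.Quad.Om (ringChar F) (Fintype.card F) m :=
    fun m => Cfsg.Agent.H374.SpFour.mem_range_iff (by omega) m
  have hchar : ringChar F = 3 := by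
    obtain ⟨n, hp, hc⟩ := FiniteField.card F (ringChar F)
    rw [h3] at hc
    have h1 : ringChar F ∣ 3 := by rw [hc]; exact dvd_pow_self _ n.2.ne'
    exact (Nat.prime_dvd_prime_iff_eq hp Nat.prime_three).1 h1
  rw [hchar, h3] at hspec'
  obtain ⟨x, hx⟩ := (hspec' 9).2 (by
    right; right; right; right; left
    exact ⟨rfl, by norm_num⟩)
  have hno : ∀ s : ℕ, s = 2 ∨ s = 5 → ∀ g : PSp 2 F, orderOf g ≠ 9 * s := by
    intro s hs g hg
    have h1 := (hspec' (9 * s)).1 ⟨g, hg⟩
    rcases hs with rfl | rfl <;> revert h1 <;> unfold Cfsg.Agent.H374.Quad.Om <;> decide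
  have hprimes : ∀ s, s.Prime → s ∣ Nat.card (centralizer ({x} : Set (PSp 2 F))) → s = 3 := by
    intro s hs hsd
    have := Fact.mk hs
    have h1 : s ∣ 25920 := hcard ▸ hsd.trans (card_subgroup_dvd_card _)
    have h2 : s = 2 ∨ s = 3 ∨ s = 5 := by
      have h4 : (25920 : ℕ) = 2 ^ 6 * (3 ^ 4 * 5) := by norm_num
      rw [h4] at h1
      rcases hs.dvd_mul.1 h1 with h1 | h1
      · exact Or.inl ((Nat.prime_dvd_prime_iff_eq hs Nat.prime_two).1 (hs.dvd_of_dvd_pow h1))
      rcases hs.dvd_mul.1 h1 with h1 | h1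
      · exact Or.inr (Or.inl ((Nat.prime_dvd_prime_iff_eq hs Nat.prime_three).1 (hs.dvd_of_dvd_pow h1)))
      · exact Or.inr (Or.inr ((Nat.prime_dvd_prime_iff_eq hs Nat.prime_five).1 h1))
    by_contra h30
    have h25 : s = 2 ∨ s = 5 := by tauto
    obtain ⟨y, hy⟩ := exists_prime_orderOf_dvd_card' s hsd
    have hyo : orderOf (y : PSp 2 F) = s := by rw [Subgroup.orderOf_coe, hy]
    have hc : Commute x (y : PSp 2 F) := (mem_cen.1 y.2).symm
    refine hno s h25 (x * y) ?_
    rw [hc.orderOf_mul_eq_mul_orderOf_of_coprime, hx, hyo]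
    rw [hx, hyo]
    rcases h25 with rfl | rfl <;> norm_num
  have hpow := Nat.eq_prime_pow_of_unique_prime_dvd (n := Nat.card (centralizer ({x} : Set (PSp 2 F))))
    Nat.card_pos.ne' fun {d} hd hdd => hprimes d hd hdd
  refine ⟨x, _, ?_, hpow, ?_⟩
  · rintro rfl
    rw [orderOf_one] at hx
    norm_num at hx
  · intro h0
    rw [h0, pow_zero] at hpow
    have h1 := orderOf_dvd_natCard (⟨x, mem_cen.2 (Commute.refl x)⟩ : centralizer ({x} : Set (PSp 2 F)))
    rw [Subgroup.orderOf_mk, hx, hpow] at h1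
    norm_num at h1

theorem simple_three {G : Type u} [Group G] [Finite G] {F : Type v} [Field F] [Fintype F] (h3 : Fintype.card F = 3)
    (h : Same G (PSp 2 F)) (TT : OrderTable.{u})
    (hk : ∀ (S : Type u) [Group S] [Finite S] [IsSimpleGroup S], IsKnownSimple' S) : IsSimpleGroup G := by
  have hF : Fintype.card F = 3 ^ 1 := by rw [h3]; norm_num
  have hCH := ch Nat.prime_three le_rfl hF h
  obtain ⟨K, hKn, hKm, hparts, hcases⟩ := struct Nat.prime_three le_rfl hF (by norm_num) h
  have hY := psp_real' (F := F) Nat.prime_three le_rfl hF (by norm_num)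
  rw [← h.card] at hY
  have h5 : tt (3 ^ 1) = 5 := by decide
  rw [h5] at hCH hKm hparts hcases
  have hG : Nat.card G = 25920 := by
    rw [card_mul hY]; decide
  have hKG : Nat.card K * (Nat.card (G ⧸ K)) = 25920 := by
    rw [← hG, ← Subgroup.card_mul_index K, Subgroup.index_eq_card]
  have hv3 := hparts 3 Nat.prime_three
  rcases hcases with hA | ⟨N, hNn, hNs, hNna, hNc, h5N, n', hn', hnn⟩
  · exfalso
    have hK : Nat.card K = 1296 := by omega
    have hQ : Nat.card (G ⧸ K) = 20 := by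
      rw [hK] at hKG; omega
    have hnil : Group.IsNilpotent K := hCH.nilpotent (by norm_num) (by rw [hG]; norm_num) hKm
    obtain ⟨x, j, hx1, hxc, hj⟩ := exists_three h3
    obtain ⟨g, hg⟩ := h.exists_of_mem (mem_co x)
    rw [hxc] at hg
    have hgo : orderOf g ∣ 3 ^ j := by
      have h1 := orderOf_dvd_natCard (⟨g, mem_cen.2 (Commute.refl g)⟩ : centralizer ({g} : Set G))
      rwa [Subgroup.orderOf_mk, hg] at h1
    obtain ⟨i, -, hi⟩ := (Nat.dvd_prime_pow Nat.prime_three).1 hgo
    have hgK : g ∈ K := by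
      rw [← QuotientGroup.eq_one_iff]
      have h1 : orderOf (g : G ⧸ K) ∣ 3 ^ i := by
        rw [← hi]; exact orderOf_map_dvd (QuotientGroup.mk' K) g
      have h2 : orderOf (g : G ⧸ K) ∣ 20 := by rw [← hQ]; exact orderOf_dvd_natCard _
      have h4 := Nat.dvd_gcd h1 h2
      have h6 : Nat.gcd (3 ^ i) 20 = 1 := Nat.Coprime.pow_left i (by norm_num)
      rw [h6, Nat.dvd_one, orderOf_eq_one_iff] at h4
      exact h4
    have f2 : Fact (Nat.Prime 2) := ⟨Nat.prime_two⟩
    obtain ⟨y, hy⟩ := exists_prime_orderOf_dvd_card' (G := K) 2 (by rw [hK]; norm_num)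
    have hc : Commute (⟨g, hgK⟩ : K) y := commute_of_nilpotent hnil (i := i) (j := 1)
      (by rw [Subgroup.orderOf_mk, hi]) (by rw [hy]; norm_num)
    have hyc : (y : G) ∈ centralizer ({g} : Set G) := mem_cen.2 (congrArg Subtype.val hc.eq).symm
    have h1 := orderOf_dvd_natCard (⟨(y : G), hyc⟩ : centralizer ({g} : Set G))
    rw [Subgroup.orderOf_mk, Subgroup.orderOf_coe, hy, hg] at h1
    have h2 := (Nat.prime_dvd_prime_iff_eq Nat.prime_two Nat.prime_three).1 (Nat.prime_two.dvd_of_dvd_pow h1)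
    norm_num at h2
  · have hN : Nat.card N * N.index = Nat.card (G ⧸ K) := Subgroup.card_mul_index N
    have hNd : Nat.card N ∣ 25920 := by
      rw [← hKG, ← hN]
      exact (Dvd.intro _ rfl).trans (Dvd.intro_left _ rfl)
    obtain ⟨g, hg, -, hord⟩ := exists_good TT (hk N) hNna
      (l := [(2,6),(3,4),(5,1)]) (by decide +kernel) hNd
    have hc := cands_25920
    rw [List.all_eq_true] at hc
    have h1 := hc g hg
    rw [← hord] at h1
    simp only [Bool.or_eq_true, bne_iff_ne, beq_iff_eq, ne_eq] at h1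
    have h2 : Nat.card N % 5 = 0 := Nat.mod_eq_zero_of_dvd h5N
    have hidx : N.index = 1 ∨ N.index = 2 := by
      have h3 : N.index ∣ 4 := Dvd.intro_left _ hnn
      have h4 := Nat.le_of_dvd (by norm_num) h3
      have h5 : N.index ≠ 0 := Subgroup.index_ne_zero_of_finite
      interval_cases N.index
      · exact absurd rfl h5
      · exact Or.inl rfl
      · exact Or.inr rfl
      · omega
      · omega
    have hvK : ∀ c k : ℕ, Nat.card K = c → c ≠ 0 → 3 ^ k ∣ c → ¬ 3 ^ (k + 1) ∣ c → 5 ∣ 3 ^ k - 1 := by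
      intro c k h3 h4 h5 h6
      rw [h3, fac_of Nat.prime_three h4 h5 h6] at hv3
      exact hv3
    rcases h1 with ((h1 | h1) | h1) | h1
    · exact absurd h2 h1
    · exfalso
      rw [← hN, h1] at hKG
      rcases hidx with h3 | h3
      · rw [h3] at hKG
        have := hvK 432 3 (by omega) (by norm_num) (by norm_num) (by norm_num)
        norm_num at this
      · rw [h3] at hKG
        have := hvK 216 3 (by omega) (by norm_num) (by norm_num) (by norm_num)
        norm_num at this
    · exfalso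
      rw [← hN, h1] at hKG
      rcases hidx with h3 | h3
      · rw [h3] at hKG
        have := hvK 72 2 (by omega) (by norm_num) (by norm_num) (by norm_num)
        norm_num at this
      · rw [h3] at hKG
        have := hvK 36 2 (by omega) (by norm_num) (by norm_num) (by norm_num)
        norm_num at this
    · rw [← hN, h1] at hKG
      have hK1 : Nat.card K = 1 ∧ N.index = 1 := by
        rcases hidx with h3 | h3 <;> rw [h3] at hKG
        · exact ⟨by omega, h3⟩
        · omega
      have hNtop : N = ⊤ := Subgroup.index_eq_one.1 hK1.2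
      subst hNtop
      have eN : (⊤ : Subgroup (G ⧸ K)) ≃* G ⧸ K := Subgroup.topEquiv
      have hKbot : K = ⊥ := Subgroup.card_eq_one.1 hK1.1
      subst hKbot
      have e : (⊤ : Subgroup (G ⧸ (⊥ : Subgroup G))) ≃* G := eN.trans QuotientGroup.quotientBot
      have : Nontrivial G := e.symm.toEquiv.nontrivial
      exact IsSimpleGroup.isSimpleGroup_of_surjective e.toMonoidHom e.surjective

/-- **Row `PSp₄(q)`, `q ≥ 3`**, with the classification as a hypothesis -/
theorem row {G : Type u} [Group G] [Finite G] {F : Type v} [Field F] [Fintype F] (h3 : 3 ≤ Fintype.card F)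
    (h : Same G (PSp 2 F)) (TT : OrderTable.{u})
    (hk : ∀ (S : Type u) [Group S] [Finite S] [IsSimpleGroup S], IsKnownSimple' S) : IsSimpleGroup G := by
  by_cases h30 : Fintype.card F = 3
  · exact simple_three h30 h TT hk
  · obtain ⟨n, hp, hn, hF⟩ : ∃ n : ℕ, (ringChar F).Prime ∧ 1 ≤ n ∧ Fintype.card F = ringChar F ^ n := by
      obtain ⟨n, hp, hc⟩ := FiniteField.card F (ringChar F)
      exact ⟨n, hp, n.2, hc⟩
    exact simple_of hp hn hF (by rw [← hF]; omega) h TT hk

end Cfsg.Agent.H72.CS4
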