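import Mathlib
import Cfsg.Agent.H72.CS4.Three
import Cfsg.Agent.OrdDiv.Table
import Cfsg.Agent.S0000

/-!
# S3677, row `PSp₄(q)`, `q ≥ 3`
-/

set_option autoImplicit false

namespace Cfsg.Agent.H72.CS4

open Cfsg Cfsg.Agent.H431.CS

universe u v

/-- **Row `PSp₄(q)`, `q ≥ 3`.** -/
theorem row_psp_four {G : Type u} [Group G] [Finite G] {F : Type v} [Field F] [Fintype F]
    (h3 : 3 ≤ Fintype.card F) (h : Same G (PSp 2 F)) : IsSimpleGroup G :=
  row h3 h Cfsg.Agent.OrdDiv.table (fun S _ _ _ => Cfsg.Agent.S0000.result (G := S))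

end Cfsg.Agent.H72.CS4
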